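import Cfsg.Agent.Lib.Flav26.Gen1
import Cfsg.Agent.Lib.Transfer.Control
import Cfsg.Agent.Lib.Wielandt.FixPoint
import Cfsg.Agent.Lib.PGroup.Basic

/-! Fixed points in `[H, P]` are generated by the fixed points in the `[h, P]` (helper26). -/

set_option autoImplicit false

namespace H26.FG
open Subgroup Cfsg H68
open scoped commutatorElement

local notation:max "𝐍(" H ")" => Subgroup.normalizer (SetLike.coe H)
local notation:max "𝐂(" H ")" => Subgroup.centralizer (SetLike.coe H)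

universe u

/-- The minimal configuration. -/
structure Cf {Γ : Type*} [Group Γ] (p : ℕ) (x : Γ) (H : Subgroup Γ) : Prop where
  hp : p.Prime
  h2 : p ≠ 2
  hx : x ^ p = 1
  nH : H.Normal
  top : H ⊔ zpowers x = ⊤
  sol : Group.IsSolvable H
  cop : (Nat.card H).Coprime p
  hHP : ⁅H, zpowers x⁆ = H
  con : ¬ H ⊓ 𝐂(zpowers x) ≤ D x H
  h1 : ∀ L < H, zpowers x ≤ 𝐍(L) → ⁅L, zpowers x⁆ ⊓ 𝐂(zpowers x) ≤ D x H
  h3 : ∀ V : Subgroup Γ, V.Normal → V ≠ ⊥ → V ≤ H → H ⊓ 𝐂(zpowers x) ≤ D x H ⊔ V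

namespace Cf
variable {Γ : Type*} [Group Γ] [Finite Γ] {p : ℕ} {x : Γ} {H : Subgroup Γ} (c : Cf p x H)
include c

omit [Finite Γ] in
theorem co {L : Subgroup Γ} (h : L ≤ H) : (Nat.card (zpowers x)).Coprime (Nat.card L) :=
  H2.coprime_of_le_right (c.cop.symm.coprime_dvd_left (by
    rw [Nat.card_zpowers]; exact orderOf_dvd_of_pow_eq_one c.hx)) h

omit [Finite Γ] in
theorem nP : zpowers x ≤ 𝐍(H) := have := c.nH; le_normalizer_of_normal

omit [Finite Γ] in
theorem normal {L : Subgroup Γ} (h1 : H ≤ 𝐍(L)) (h2 : zpowers x ≤ 𝐍(L)) : L.Normal := by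
  rw [← normalizer_eq_top_iff, eq_top_iff, ← c.top]; exact sup_le h1 h2

omit [Finite Γ] in
theorem K_lt {h : Γ} (hh : h ∈ H) : K x h < H :=
  lt_of_le_of_ne (K_le hh c.nP) fun e => c.con (by
    nth_rewrite 1 [← e]; exact le_D hh)

omit [Finite Γ] in
theorem DC : D x H ≤ H ⊓ 𝐂(zpowers x) := le_inf (D_le c.nP) (D_le_C x H)

omit [Finite Γ] in
theorem h3' {V : Subgroup Γ} [hV : V.Normal] (h0 : V ≠ ⊥) (h : V ≤ H) :
    H ⊓ 𝐂(zpowers x) ≤ D x H ⊔ (V ⊓ 𝐂(zpowers x)) := by
  rw [← H1.sup_inf_eq_of_le_of_le_normalizer' (D_le_C x H) le_normalizer_of_normal]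
  exact le_inf (c.h3 V hV h0 h) inf_le_right

theorem dec {L : Subgroup Γ} (h : L ≤ H) (hn : zpowers x ≤ 𝐍(L)) :
    ⁅L, zpowers x⁆ ⊔ (L ⊓ 𝐂(zpowers x)) = L :=
  H2.commutator_sup_centralizer hn (c.co h) (Or.inl (H2.isSolvable_zpowers x))

omit [Finite Γ] in
theorem sup_inf {L X : Subgroup Γ} (h : L < H) (hn : zpowers x ≤ 𝐍(L)) (hX : X ≤ D x H)
    (hXL : X ≤ 𝐍(L)) : (X ⊔ ⁅L, zpowers x⁆) ⊓ 𝐂(zpowers x) ≤ D x H := by
  have hXC := hX.trans (D_le_C x H)
  rw [H1.sup_inf_eq_of_le_of_le_normalizer' hXC (H2.le_normalizer_commutator hXL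
    (hXC.trans (centralizer_le_normalizer _)))]
  exact sup_le hX (c.h1 L h hn)

theorem central {V : Subgroup Γ} (hV : H3.IsMinNormal V) (hVH : V ≤ H) (hZ : ⁅V, H⁆ = ⊥) :
    False := by
  have := hV.normal
  have := c.nH
  have hVC := commutator_eq_bot_iff_le_centralizer.1 hZ
  obtain ⟨hVc, q, hq, -, -, hVq⟩ := hV.elementary (H1.isSolvable_of_le c.sol hVH)
  have := Fact.mk hq
  have hle : ⁅V, zpowers x⁆ ≤ V := commutator_le_left _ _
  have hVD : ¬ V ⊓ 𝐂(zpowers x) ≤ D x H := fun h =>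
    c.con ((c.h3' hV.ne_bot hVH).trans (sup_le le_rfl h))
  have hVP : V ≤ 𝐂(zpowers x) := by
    rcases hV.eq_bot_or_eq _ (c.normal (le_trans (le_centralizer_iff.1 (hle.trans hVC))
      (centralizer_le_normalizer _)) (normalizer_commutator_ge_right _ _)) hle with h | h
    · exact commutator_eq_bot_iff_le_centralizer.1 h
    · have := H2.commutator_inf_centralizer_eq_bot hVc le_normalizer_of_normal (c.co hVH)
      rw [h] at this
      exact absurd (this ▸ bot_le) hVD
  rw [inf_of_le_left hVP] at hVD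
  have key : ∀ L < H, zpowers x ≤ 𝐍(L) → V ≤ L → ⁅L, L⁆ ⊓ 𝐂(zpowers x) ≤ D x H := by
    intro L hL hn hVL
    refine le_trans (inf_le_inf_right _ ?_) (c.sup_inf hL hn (X := D x H ⊓ L) inf_le_left
      (inf_le_right.trans le_normalizer))
    set M := D x H ⊓ L ⊔ ⁅L, zpowers x⁆ with hM
    have hML : M ≤ L := sup_le inf_le_right (H2.commutator_le_of_le_normalizer hn)
    have hVM : V ≤ 𝐂(M) := hVC.trans (centralizer_le (hML.trans hL.le))
    have hVN : V ≤ 𝐍(M) := hVM.trans (centralizer_le_normalizer _)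
    have h1 : L ≤ M ⊔ V := by
      rw [← c.dec hL.le hn]
      refine sup_le (le_sup_right.trans le_sup_left) ?_
      have h2 : L ⊓ 𝐂(zpowers x) ≤ (V ⊔ D x H) ⊓ L :=
        le_inf (((inf_le_inf_right _ hL.le).trans (c.h3 V ‹_› hV.ne_bot hVH)).trans
          (sup_comm _ _).le) inf_le_left
      rw [H1.sup_inf_eq_of_le_of_le_normalizer hVL le_normalizer_of_normal] at h2
      exact h2.trans (sup_le le_sup_right (le_sup_left.trans le_sup_left))
    refine (commutator_mono h1 le_rfl).trans (H2.commutator_sup_le le_normalizer hVN ?_ ?_)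
    · rw [commutator_comm]
      refine (commutator_mono h1 le_rfl).trans (H2.commutator_sup_le le_normalizer hVN
        (commutator_le_self M) ?_)
      rw [commutator_eq_bot_iff_le_centralizer.2 hVM]; exact bot_le
    · rw [commutator_eq_bot_iff_le_centralizer.2 (hVC.trans (centralizer_le hL.le))]; exact bot_le
  have hCH : H ⊓ 𝐂(zpowers x) ≤ ⁅H, H⁆ := H2.inf_centralizer_le_commutator c.nP (c.co le_rfl) c.hHP.ge
  have hVH' : V ≤ ⁅H, H⁆ := (le_inf hVH hVP).trans hCH
  obtain ⟨S, hS, hSn⟩ := H2.exists_invariant_sylowIn c.nP (c.co le_rfl)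
    (Or.inl (H2.isSolvable_zpowers x)) q
  have hVS : V ≤ S := hS.le_of_le_normalizer hVq hVH le_normalizer_of_normal
  rcases hS.le.lt_or_eq with hlt | rfl
  · refine hVD (le_trans (le_inf ?_ hVP) (key S hlt hSn hVS))
    intro v hv
    have h1 := H4.inf_commutator_inf_center_le (G := H) (H := S.subgroupOf H)
      hS.toSylow.card_coprime_index (x := ⟨v, hVH hv⟩) ⟨⟨hVS hv, by
        have := hVH' hv
        rw [← Subgroup.map_subtype_commutator] at this
        obtain ⟨w, hw, e⟩ := this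
        rwa [show (⟨v, hVH hv⟩ : H) = w from Subtype.ext e.symm]⟩,
        mem_center_iff.2 fun g => Subtype.ext (hVC hv g g.2)⟩
    have h2 := mem_map_of_mem H.subtype h1
    rwa [map_commutator, map_subgroupOf_eq_of_le hS.le] at h2
  have hSq := hS.isPGroup
  have hS0 : S ≠ ⊥ := fun e => hV.ne_bot (le_bot_iff.1 (e ▸ hVH))
  have hlt : ⁅S, S⁆ < S := H1.commutator_self_lt_of_isSolvable c.sol hS0
  set Y := D x S ⊔ ⁅⁅S, S⁆, zpowers x⁆ with hY
  have hYS : Y ≤ ⁅S, S⁆ := sup_le (c.DC.trans hCH) (commutator_le_left _ _)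
  have hM : ∀ a ∈ S, ⁅⁅S, S⁆ ⊔ K x a, ⁅S, S⁆ ⊔ K x a⁆ ≤ Y := by
    intro a ha
    have h1 : ⁅S, S⁆ ⊔ K x a < S := by
      refine lt_of_le_of_ne (sup_le hlt.le (c.K_lt ha).le) fun e => (c.K_lt ha).ne ?_
      exact H2.eq_of_sup_frattini (c.K_lt ha).le (e.ge.trans (sup_le_sup_right
        ((H1.map_subtype_frattini_le_iff hSq).1 le_rfl).1 _))
    have h2 : zpowers x ≤ 𝐍(⁅S, S⁆ ⊔ K x a) :=
      H2.le_normalizer_sup le_normalizer_of_normal (le_N_K x a)
    have h3 := commutator_mono h1.le h1.le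
    rw [← c.dec (h3.trans hlt.le) (H2.le_normalizer_commutator h2 h2)]
    exact sup_le ((commutator_mono h3 le_rfl).trans le_sup_right)
      ((key _ h1 h2 (hVH'.trans le_sup_left)).trans le_sup_left)
  have hrel : ∀ X, ⁅X, ⁅S, S⁆⁆ ≤ Y → X ≤ H2.relCentralizer ⁅S, S⁆ Y := fun X h =>
    H2.le_relCentralizer_iff.2 ⟨le_normalizer_iff_commutator_le_right.2
      ((commutator_mono le_rfl hYS).trans h), h⟩
  have htop : ⊤ ≤ H2.relCentralizer ⁅S, S⁆ Y := by
    rw [← c.top]
    refine sup_le (c.hHP.ge.trans ((comm_le_iSup_K x S).trans (iSup₂_le fun a ha => hrel _ ?_)))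
      (hrel _ (by rw [commutator_comm]; exact le_sup_right))
    exact (commutator_mono le_sup_right le_sup_left).trans (hM a ha)
  obtain ⟨hYn, hYc⟩ := H2.le_relCentralizer_iff.1 htop
  have hYn : Y.Normal := normalizer_eq_top_iff.1 (top_le_iff.1 hYn)
  let f := QuotientGroup.mk' Y
  have hf : Function.Surjective f := QuotientGroup.mk'_surjective _
  have hker : ∀ g, f g = 1 ↔ g ∈ Y := fun g => QuotientGroup.eq_one_iff g
  have : (S.map f).Normal := c.nH.map f hf
  have h4 := class_two (x := f x) (c.hp.odd_of_ne_two c.h2) (by rw [← map_pow, c.hx, map_one])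
    (H := S.map f) (by rw [← MonoidHom.map_zpowers, ← map_commutator, c.hHP]) (by
      rw [← map_commutator]
      rintro _ ⟨a, ha, rfl⟩
      refine mem_center_iff.2 fun g => ?_
      obtain ⟨g, rfl⟩ := hf g
      rw [← commutatorElement_eq_one_iff_mul_comm, ← map_commutatorElement, hker]
      exact hYc (commutator_mem_commutator (mem_top g) ha)) (by
      rintro _ ⟨a, ha, rfl⟩
      rw [← map_inv, ← map_mul, ← map_mul, ← map_commutatorElement, hker]
      obtain ⟨k, hk, hak⟩ := exists_C_mul_K (c.co (c.K_lt ha).le)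
      have h5 : a ∈ ⁅S, S⁆ ⊔ K x a := by
        have := mul_mem (mem_sup_left (T := K x a) (hCH ⟨mul_mem ha ((c.K_lt ha).le hk), hak⟩))
          (mem_sup_right (inv_mem hk))
        rwa [mul_inv_cancel_right] at this
      exact hM a ha (commutator_mem_commutator h5 (H2.conj_mem_of_le_normalizer
        (H2.le_normalizer_sup le_normalizer_of_normal (le_N_K x a)) (mem_zpowers x) h5)))
  rw [← map_commutator, Subgroup.map_eq_bot_iff, QuotientGroup.ker_mk'] at h4
  exact hVD ((le_inf (hVH'.trans h4) hVP).trans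
    (c.sup_inf hlt le_normalizer_of_normal le_rfl le_normalizer_of_normal))

theorem noncentral {V : Subgroup Γ} (hV : H3.IsMinNormal V) (hVH : V ≤ H) (hZ : ⁅V, H⁆ ≠ ⊥) :
    False := by
  have := hV.normal
  have := c.nH
  have hZ' : ⁅V, H⁆ = V := (hV.eq_bot_or_eq _ inferInstance (commutator_le_left _ _)).resolve_left hZ
  obtain ⟨hVc, q, hq, -, -, hVq⟩ := hV.elementary (H1.isSolvable_of_le c.sol hVH)
  have := Fact.mk hq
  have hVV : V ≤ 𝐂(V) := le_centralizer_iff_isMulCommutative.2 hVc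
  have hVN : ∀ U ≤ V, V ≤ 𝐍(U) := fun U h =>
    (hVV.trans (centralizer_le h)).trans (centralizer_le_normalizer _)
  have hle : ⁅V, zpowers x⁆ ≤ V := commutator_le_left _ _
  set V0 := D x H ⊓ V ⊔ ⁅V, zpowers x⁆ with hV0
  have hV0V : V0 ≤ V := sup_le inf_le_right hle
  have hVlt : V < H := lt_of_le_of_ne hVH fun e => hZ (by
    rw [← e]; exact commutator_eq_bot_iff_le_centralizer.2 hVV)
  have hne : ¬ V ≤ V0 := fun h => c.con ((c.h3' hV.ne_bot hVH).trans (sup_le le_rfl
    ((inf_le_inf_right _ h).trans (c.sup_inf hVlt le_normalizer_of_normal inf_le_left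
      le_normalizer_of_normal))))
  have hrel : ∀ X, ⁅X, V⁆ ≤ V0 → X ≤ H2.relCentralizer V V0 := fun X h =>
    H2.le_relCentralizer_iff.2 ⟨le_normalizer_iff_commutator_le_right.2
      ((commutator_mono le_rfl hV0V).trans h), h⟩
  have hCN : H ⊓ 𝐂(zpowers x) ≤ 𝐍(⁅V, zpowers x⁆) := H2.le_normalizer_commutator
    le_normalizer_of_normal (inf_le_right.trans (centralizer_le_normalizer _))
  have hC0 : H ⊓ 𝐂(zpowers x) ≤ H2.relCentralizer V V0 := by
    apply hrel
    rw [commutator_comm]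
    nth_rewrite 1 [← c.dec hVH le_normalizer_of_normal]
    refine H2.commutator_sup_le (hle.trans (hVN _ hV0V)) (inf_le_left.trans (hVN _ hV0V))
      ((H2.commutator_le_of_le_normalizer hCN).trans le_sup_right) ?_
    rw [commutator_comm]
    refine (commutator_mono (c.h3' hV.ne_bot hVH) le_rfl).trans (H2.commutator_sup_le
      (c.DC.trans (H2.le_normalizer_sup (H2.le_normalizer_inf (le_N_D x H) le_normalizer_of_normal)
        hCN)) (inf_le_left.trans (hVN _ hV0V)) (le_trans (le_inf ?_ ?_) le_sup_left) ?_)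
    · exact H2.commutator_le_of_le_normalizer ((inf_le_inf_right _ hVH).trans (le_N_D x H))
    · exact (commutator_mono le_rfl inf_le_left).trans (commutator_le_right _ _)
    · rw [commutator_eq_bot_iff_le_centralizer.2
        (inf_le_left.trans (hVV.trans (centralizer_le inf_le_left)))]
      exact bot_le
  have hL : ∀ L < H, zpowers x ≤ 𝐍(L) → V ≤ L → L ≤ H2.relCentralizer V V0 := by
    intro L hL hn hVL
    rw [← c.dec hL.le hn]
    refine sup_le (hrel _ ?_) ((inf_le_inf_right _ hL.le).trans hC0)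
    have h1 : ⁅⁅L, zpowers x⁆, V⁆ ≤ ⁅L, zpowers x⁆ ⊓ V := le_inf (H2.commutator_le_of_le_normalizer
      (hVL.trans (normalizer_commutator_ge_left _ _))) (commutator_le_right _ _)
    refine h1.trans ?_
    rw [← c.dec (L := ⁅L, zpowers x⁆ ⊓ V) (inf_le_right.trans hVH)
      (H2.le_normalizer_inf (normalizer_commutator_ge_right _ _) le_normalizer_of_normal)]
    exact sup_le ((commutator_mono inf_le_right le_rfl).trans le_sup_right) (le_trans (le_inf
      ((inf_le_inf_right _ inf_le_left).trans (c.h1 L hL hn)) (inf_le_left.trans inf_le_right))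
      le_sup_left)
  obtain ⟨r, hr, R, hR, hRn, hRr⟩ : ∃ (r : ℕ) (_ : Fact r.Prime) (R : Subgroup Γ), SylowIn r R H ∧
      zpowers x ≤ 𝐍(R) ∧ ¬ R ≤ H2.relCentralizer V V0 := by
    by_contra! h
    have := H2.le_of_forall_invariant_sylowIn_le c.nP (c.co le_rfl)
      (Or.inl (H2.isSolvable_zpowers x)) fun r hr => h r hr
    exact hne (hZ'.ge.trans (commutator_comm V H ▸ (H2.le_relCentralizer_iff.1 this).2))
  have hRH := hR.le
  have hVR : V ⊔ R = H := by
    by_contra h
    exact hRr (le_sup_right.trans (hL _ (lt_of_le_of_ne (sup_le hVH hRH) h)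
      (H2.le_normalizer_sup le_normalizer_of_normal hRn) le_sup_left))
  have hqr : q ≠ r := by
    rintro rfl
    have hH : IsPGroup q H := hVR ▸ IsPGroup.to_sup_of_normal_left hVq hR.isPGroup
    rcases hV.inf_eq_bot_or_le 𝐂(H) with h | h
    · obtain ⟨z, h1, h2, h3⟩ := H5.exists_mem_centralizer_orderOf_eq hH hVH le_normalizer_of_normal
        hV.ne_bot
      rw [mem_bot.1 (h ▸ ⟨h1, h2⟩ : z ∈ (⊥ : Subgroup Γ)), orderOf_one] at h3
      exact hq.one_lt.ne h3
    · exact hZ (commutator_eq_bot_iff_le_centralizer.2 h)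
  have hVRb : V ⊓ R = ⊥ := (IsPGroup.disjoint_of_ne q r hqr V R hVq hR.isPGroup).eq_bot
  have hR1 : ∀ R1 ≤ R, zpowers x ≤ 𝐍(R1) → R ≤ 𝐍(R1) → ⁅V, R1⁆ = ⊥ → R1 = ⊥ := by
    intro R1 h1 h2 h3 h4
    rw [commutator_eq_bot_iff_le_centralizer] at h4
    have := c.normal (hVR ▸ sup_le (h4.trans (centralizer_le_normalizer _)) h3) h2
    by_contra h0
    refine c.con ((c.h3' hV.ne_bot hVH).trans (sup_le le_rfl fun v hv => ?_))
    obtain ⟨d, hd, ρ, hρ, e⟩ := (H2.mem_sup_iff_of_le_normalizer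
      ((inf_le_inf_right _ (h1.trans hRH)).trans (le_N_D x H))).1
      (c.h3' h0 (h1.trans hRH) ⟨hVH hv.1, hv.2⟩)
    obtain ⟨k, hk⟩ := hR.isPGroup ⟨ρ, h1 hρ.1⟩
    have hk' : ρ ^ r ^ k = 1 := congrArg Subtype.val hk
    have h5 : Commute v ρ⁻¹ := (show Commute ρ v from h4 hv.1 ρ hρ.1).symm.inv_right
    have h6 : v ^ r ^ k ∈ D x H := by
      have := pow_mem hd (r ^ k)
      rwa [eq_mul_inv_of_mul_eq e, h5.mul_pow, inv_pow, hk', inv_one, mul_one] at this
    obtain ⟨j, hj⟩ := IsPGroup.iff_orderOf.1 hVq ⟨v, hv.1⟩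
    refine H4.mem_of_pow_mem_of_coprime h6 ?_
    rw [← Subgroup.orderOf_coe] at hj
    rw [hj]
    exact Nat.Coprime.pow _ _ ((Nat.coprime_primes hq hr.out).2 hqr)
  have hR2 : ∀ R1 < R, zpowers x ≤ 𝐍(R1) → R ≤ 𝐍(R1) → R1 = ⊥ := by
    intro R1 h1 h2 h3
    refine hR1 R1 h1.le h2 h3 ?_
    have h4 : V ⊔ R1 < H := by
      refine lt_of_le_of_ne (sup_le hVH (h1.le.trans hRH)) fun e => h1.ne ?_
      have := H1.sup_inf_eq_of_le_of_le_normalizer' (B := V) h1.le le_normalizer_of_normal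
      rw [sup_comm, e, inf_of_le_right hRH, hVRb, sup_bot_eq] at this
      exact this.symm
    have h5 := (H2.le_relCentralizer_iff.1 (le_sup_right.trans (hL _ h4
      (H2.le_normalizer_sup le_normalizer_of_normal h2) le_sup_left))).2
    refine (hV.eq_bot_or_eq _ (c.normal (hVR ▸ sup_le (normalizer_commutator_ge_left _ _)
      (H2.le_normalizer_commutator le_normalizer_of_normal h3))
      (H2.le_normalizer_commutator le_normalizer_of_normal h2))
      (commutator_le_left _ _)).resolve_right fun e => hne ?_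
    rw [← e, commutator_comm]; exact h5
  have hR0 : R ≠ ⊥ := by
    rintro rfl
    exact hVlt.ne (by simpa using hVR)
  have hRR : R ≤ 𝐂(R) := commutator_eq_bot_iff_le_centralizer.1 (hR2 _
    (H1.commutator_self_lt_of_isSolvable (H1.isSolvable_of_le c.sol hRH) hR0)
    (H2.le_normalizer_commutator hRn hRn) (normalizer_commutator_ge_left _ _))
  have hRN : ∀ U ≤ R, R ≤ 𝐍(U) := fun U h =>
    (hRR.trans (centralizer_le h)).trans (centralizer_le_normalizer _)
  have hRC : R ⊓ 𝐂(zpowers x) = ⊥ := by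
    refine hR2 _ (lt_of_le_of_ne inf_le_left fun e => hVlt.not_ge ?_)
      (H2.le_normalizer_inf hRn (H2.le_normalizer_centralizer le_normalizer)) (hRN _ inf_le_left)
    rw [← c.hHP, ← hVR]
    refine H2.commutator_sup_le le_normalizer_of_normal le_normalizer_of_normal hle ?_
    rw [commutator_eq_bot_iff_le_centralizer.2 (inf_eq_left.1 e)]; exact bot_le
  obtain ⟨⟨h, hh⟩, hh1⟩ := ne_bot_iff_exists_ne_one.1 hR0
  have hK : K x h = R := by
    by_contra e
    have h1 := K_le hh hRn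
    have h2 := mem_K x h 1
    rw [hR2 _ (lt_of_le_of_ne h1 e) (le_N_K x h) (hRN _ h1), mem_bot, pow_one, inv_mul_eq_one,
      eq_mul_inv_iff_mul_eq] at h2
    exact hh1 (Subtype.ext (mem_bot.1 (hRC ▸ ⟨hh, mem_C.2 h2.symm⟩)))
  have hVCR : V ⊓ 𝐂(R) = ⊥ := by
    refine (hV.eq_bot_or_eq _ (c.normal (hVR ▸ sup_le (hVN _ inf_le_left) ?_)
      (H2.le_normalizer_inf le_normalizer_of_normal (H2.le_normalizer_centralizer hRn)))
      inf_le_left).resolve_right fun e => hR0 (hR1 R le_rfl hRn le_normalizer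
        (commutator_eq_bot_iff_le_centralizer.2 (inf_eq_left.1 e)))
    exact H2.le_normalizer_inf le_normalizer_of_normal (H2.le_normalizer_centralizer le_normalizer)
  have := Fact.mk c.hp
  have hx1 : x ≠ 1 := by
    rintro rfl
    have := c.hHP
    rw [zpowers_one_eq_bot, commutator_bot_right] at this
    exact hR0 (le_bot_iff.1 (this ▸ hRH))
  have hP : Nat.card (zpowers x) = p := by rw [Nat.card_zpowers, orderOf_eq_prime c.hx hx1]
  have hRP : zpowers x ⊓ R = ⊥ := H2.inf_eq_bot_of_coprime_card (c.co hRH)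
  have hcop : (Nat.card R).Coprime (Nat.card V) := by
    obtain ⟨i, hi⟩ := hVq.exists_card_eq
    obtain ⟨j, hj⟩ := hR.isPGroup.exists_card_eq
    rw [hi, hj]
    exact Nat.Coprime.pow _ _ ((Nat.coprime_primes hr.out hq).2 hqr.symm)
  have hW := H53.Wielandt.frobenius_card_eq R (zpowers x) V (by rwa [inf_comm])
    (fun e he u hu => H2.conj_mem_of_le_normalizer hRn he hu) (fun e he he1 u hu h => by
      rw [← mem_bot, ← hRC]
      have h1 : zpowers e = zpowers x := by
        refine eq_of_le_of_card_ge (zpowers_le.2 he) ?_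
        have h2 : e ^ p = 1 := by
          rw [← hP]
          exact congrArg Subtype.val (pow_card_eq_one' (x := (⟨e, he⟩ : zpowers x)))
        rw [hP, Nat.card_zpowers, orderOf_eq_prime h2 he1]
      exact ⟨hu, h1 ▸ mem_C.2 h⟩) le_normalizer_of_normal (H1.isSolvable_of_le c.sol hVH)
    (by rw [H2.card_sup_of_le_normalizer hRn hRP]
        exact Nat.Coprime.mul_right hcop.symm (c.co hVH).symm) hVCR
  have hlt : Nat.card ↥(V ⊓ 𝐂(zpowers x)) ^ 2 < Nat.card V := by
    have := hV.nontrivial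
    have h1 : 1 < Nat.card V := Finite.one_lt_card
    rw [hW, hP] at h1 ⊢
    refine Nat.pow_lt_pow_right ?_ (lt_of_le_of_ne c.hp.two_le c.h2.symm)
    by_contra! h
    exact h1.not_ge (pow_le_one₀ (Nat.zero_le _) h)
  have hA : R ⊔ zpowers x = zpowers x ⊔ zpowers (h⁻¹ * x * h⁻¹⁻¹) := by
    rw [inv_inv, ← K_sup, hK]
  obtain ⟨v, hv, h1⟩ := exists_v (A := R ⊔ zpowers x) (H1.isSolvable_of_le c.sol hRH)
    (mem_sup_left (inv_mem hh)) hA le_sup_left (sup_le le_normalizer hRn) le_normalizer_of_normal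
    hVV hcop hVCR (fun U hU hn => hV.eq_bot_or_eq U (c.normal (hVR ▸ sup_le (hVN U hU)
      (le_sup_left.trans hn)) (le_sup_right.trans hn)) hU) hlt
  have hhv : h * v⁻¹ ∈ H := mul_mem (hRH hh) (hVH (inv_mem hv))
  rw [show v * (h⁻¹ * x * h⁻¹⁻¹) * v⁻¹ = (h * v⁻¹)⁻¹ * x * (h * v⁻¹) by group] at h1
  have h2 : H ≤ zpowers x ⊔ zpowers ((h * v⁻¹)⁻¹ * x * (h * v⁻¹)) := by
    rw [← hVR]
    refine sup_le h1 (le_sup_left.trans (hA.le.trans (sup_le le_sup_left (zpowers_le.2 ?_))))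
    rw [show h⁻¹ * x * h⁻¹⁻¹ = v⁻¹ * ((h * v⁻¹)⁻¹ * x * (h * v⁻¹)) * v by group]
    exact mul_mem (mul_mem (h1 (inv_mem hv)) (mem_sup_right (mem_zpowers _))) (h1 hv)
  rw [← K_sup] at h2
  have h3 := H1.sup_inf_eq_of_le_of_le_normalizer (c.K_lt hhv).le (le_N_K x (h * v⁻¹))
  rw [inf_of_le_right h2, H2.inf_eq_bot_of_coprime_card (c.co le_rfl), sup_bot_eq] at h3
  exact (c.K_lt hhv).ne h3.symm

theorem false : False := by
  have := c.nH
  obtain ⟨V, hV, hVH⟩ := H3.exists_isMinNormal_le H fun e => c.con (by rw [e]; simp)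
  by_cases h : ⁅V, H⁆ = ⊥
  · exact c.central hV hVH h
  · exact c.noncentral hV hVH h

end Cf

theorem main {p : ℕ} (hp : p.Prime) (h2 : p ≠ 2) (n : ℕ) :
    ∀ (Γ : Type u) [Group Γ] [Finite Γ] (x : Γ) (H : Subgroup Γ), Nat.card H = n → x ^ p = 1 →
      zpowers x ≤ 𝐍(H) → Group.IsSolvable H → (Nat.card H).Coprime p →
      ⁅H, zpowers x⁆ ⊓ 𝐂(zpowers x) ≤ D x H := by
  induction n using Nat.strong_induction_on with
  | _ n ih =>
  suffices h : ∀ (Γ : Type u) [Group Γ] [Finite Γ] (x : Γ) (H : Subgroup Γ), Nat.card H = n →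
      x ^ p = 1 → H.Normal → H ⊔ zpowers x = ⊤ → Group.IsSolvable H → (Nat.card H).Coprime p →
      ⁅H, zpowers x⁆ ⊓ 𝐂(zpowers x) ≤ D x H by
    intro Γ _ _ x H hn hx hP hs hc
    let B := H ⊔ zpowers x
    have hxB : x ∈ B := mem_sup_right (mem_zpowers x)
    have e1 : (H.subgroupOf B).map B.subtype = H := map_subgroupOf_eq_of_le le_sup_left
    have e2 : (zpowers (⟨x, hxB⟩ : B)).map B.subtype = zpowers x := MonoidHom.map_zpowers _ _
    have e3 : Nat.card (H.subgroupOf B) = Nat.card H := H1.card_subgroupOf_of_le le_sup_left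
    have := map_mono (f := B.subtype) (h B ⟨x, hxB⟩ (H.subgroupOf B) (e3.trans hn) (Subtype.ext hx)
      (normal_subgroupOf_of_le_normalizer (sup_le le_normalizer hP)) (by
        apply map_injective B.subtype_injective
        rw [Subgroup.map_sup, e1, e2, ← MonoidHom.range_eq_map, range_subtype])
      (H1.isSolvable_subgroupOf hs B) (e3 ▸ hc))
    rw [map_inf _ _ _ B.subtype_injective, map_commutator, e1, e2,
      H1.map_subtype_centralizer_subgroup, e2] at this
    refine le_trans (le_inf inf_le_left (le_inf (inf_le_left.trans (commutator_le_sup _ _))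
      inf_le_right)) (this.trans ?_)
    have h1 := map_D_le B.subtype ⟨x, hxB⟩ (H.subgroupOf B)
    rwa [e1] at h1
  intro Γ _ _ x H hn hx hH htop hs hc
  have hco : (Nat.card (zpowers x)).Coprime (Nat.card H) := hc.symm.coprime_dvd_left (by
    rw [Nat.card_zpowers]; exact orderOf_dvd_of_pow_eq_one hx)
  have h1 : ∀ L < H, zpowers x ≤ 𝐍(L) → ⁅L, zpowers x⁆ ⊓ 𝐂(zpowers x) ≤ D x H := fun L hL hn' =>
    (ih _ (hn ▸ H1.card_lt_of_lt hL) Γ x L rfl hx hn' (H1.isSolvable_of_le hs hL.le)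
      (hc.coprime_dvd_left (card_dvd_of_le hL.le))).trans (D_mono x hL.le)
  rcases (commutator_le_left H (zpowers x)).lt_or_eq with hlt | hHP
  · have := h1 _ hlt (normalizer_commutator_ge_right _ _)
    rwa [H2.commutator_commutator_eq le_normalizer_of_normal hco] at this
  rw [hHP]
  by_contra con
  refine Cf.false ⟨hp, h2, hx, hH, htop, hs, hc, hHP, con, h1, fun V hV h0 hVH => ?_⟩
  let f := QuotientGroup.mk' V
  have : (H.map f).Normal := hH.map f (QuotientGroup.mk'_surjective _)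
  have h3 := ih _ (by
      have h4 := H1.card_map_mul_card_inf_ker f H
      rw [QuotientGroup.ker_mk', inf_of_le_left hVH, hn] at h4
      have := (nontrivial_iff_ne_bot V).2 h0
      have h5 : 1 < Nat.card V := Finite.one_lt_card
      have h6 : 0 < Nat.card (H.map f) := Nat.card_pos
      nlinarith) _ (f x) (H.map f) rfl (by rw [← map_pow, hx, map_one]) le_normalizer_of_normal
    (H1.isSolvable_map hs f) (hc.coprime_dvd_left (card_map_dvd _ f))
  rw [← MonoidHom.map_zpowers, ← map_commutator, hHP, MonoidHom.map_zpowers] at h3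
  have h4 := ((map_inf_le _ _ f).trans (inf_le_inf_left _ (map_C_le f x))).trans
    (h3.trans (D_map_le f le_normalizer_of_normal hco))
  rwa [Subgroup.map_le_map_iff, QuotientGroup.ker_mk'] at h4

end H26.FG
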