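import Cfsg.Agent.Lib.BG3.Weights
import Cfsg.Agent.Lib.Core.Fitting
import Cfsg.Agent.Lib.Core.Coprime

/-! Fixed spaces of elements of prime order: permuted direct sums and three disjoint translates
(helper26). -/

set_option autoImplicit false

namespace H26.FF
open Module Subgroup
open scoped commutatorElement

theorem card_orbits {ι : Type*} [Finite ι] {p : ℕ} (hp : p.Prime) (σ : Equiv.Perm ι)
    (hσ : σ ^ p = 1) :
    p * Nat.card (MulAction.orbitRel.Quotient (zpowers σ) ι) =
      Nat.card ι + (p - 1) * Nat.card {i // σ i = i} := by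
  classical
  have := Fintype.ofFinite ι
  have hp1 : p = (p - 1) + 1 := (Nat.sub_add_cancel hp.one_le).symm
  by_cases h1 : σ = 1
  · subst h1
    have e1 : Nat.card (MulAction.orbitRel.Quotient (zpowers (1 : Equiv.Perm ι)) ι) =
        Nat.card ι := by
      refine (Nat.card_congr (Equiv.ofBijective (fun i : ι => (Quotient.mk _ i :
        MulAction.orbitRel.Quotient (zpowers (1 : Equiv.Perm ι)) ι)) ⟨?_, Quotient.mk_surjective⟩)).symm
      intro i j h
      obtain ⟨⟨g, hg⟩, h2⟩ := Quotient.exact h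
      rw [zpowers_one_eq_bot, mem_bot] at hg
      subst hg
      exact h2.symm
    have e2 : Nat.card {i // (1 : Equiv.Perm ι) i = i} = Nat.card ι :=
      Nat.card_congr (Equiv.subtypeUnivEquiv fun _ => rfl)
    rw [e1, e2]
    conv_lhs => rw [hp1]
    ring
  · have := Fact.mk hp
    have ho : orderOf σ = p := orderOf_eq_prime hσ h1
    have hc : Nat.card (zpowers σ) = p := by rw [Nat.card_zpowers, ho]
    have := Fintype.ofFinite (MulAction.orbitRel.Quotient (zpowers σ) ι)
    have hB := MulAction.sum_card_fixedBy_eq_card_orbits_mul_card_group (zpowers σ) ι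
    rw [← Finset.add_sum_erase _ _ (Finset.mem_univ 1),
      Finset.sum_const_nat (m := Nat.card {i // σ i = i})] at hB
    · rw [Finset.card_erase_of_mem (Finset.mem_univ _), Finset.card_univ, ← Nat.card_eq_fintype_card,
        ← Nat.card_eq_fintype_card, ← Nat.card_eq_fintype_card, hc] at hB
      rw [mul_comm, ← hB]
      simp
    · intro g hg
      rw [← Nat.card_eq_fintype_card]
      refine Nat.card_congr (Equiv.subtypeEquivRight fun i => ?_)
      have hg1 : g ≠ 1 := Finset.ne_of_mem_erase hg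
      constructor
      · intro h
        have h2 : (⟨σ, mem_zpowers σ⟩ : zpowers σ) ∈ zpowers g := by
          rw [zpowers_eq_top_of_prime_card hc hg1]; exact mem_top _
        have h3 : zpowers g ≤ MulAction.stabilizer (zpowers σ) i := zpowers_le.2 h
        exact h3 h2
      · intro h
        have h3 : zpowers σ ≤ MulAction.stabilizer (Equiv.Perm ι) i := zpowers_le.2 h
        exact h3 g.2

section L
variable {K U : Type*} [Field K] [AddCommGroup U] [Module K U] [FiniteDimensional K U]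

theorem fix_bound {ι : Type*} [Finite ι] {p : ℕ} (hp : p.Prime) (σ : Equiv.Perm ι)
    (hσ : σ ^ p = 1) (T : End K U) (W : ι → Submodule K U) (hind : iSupIndep W)
    (htop : ⨆ i, W i = ⊤) (hW : ∀ i, ∀ v ∈ W i, T v ∈ W (σ i)) {d : ℕ}
    (hd : ∀ i, finrank K (W i) = d) :
    Nat.card ι * d = finrank K U ∧
      p * finrank K (LinearMap.ker (T - 1)) ≤
        d * (Nat.card ι + (p - 1) * Nat.card {i // σ i = i}) := by
  classical
  have := Fintype.ofFinite ι
  have hI : DirectSum.IsInternal W :=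
    (DirectSum.isInternal_submodule_iff_iSupIndep_and_iSup_eq_top W).2 ⟨hind, htop⟩
  let e := LinearEquiv.ofBijective (DirectSum.coeLinearMap W) hI
  refine ⟨?_, ?_⟩
  · rw [← e.finrank_eq, finrank_directSum]
    simp [hd]
  let π : ∀ i, U →ₗ[K] W i := fun i =>
    (DirectSum.component K ι (fun i => W i) i).comp e.symm.toLinearMap
  have hπ : ∀ i v, π i v = e.symm v i := fun _ _ => rfl
  have hT : ∀ v i, (π (σ i) (T v) : U) = T (π i v) := by
    intro v i
    have hv : v ∈ ⨆ i, W i := htop ▸ Submodule.mem_top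
    induction hv using Submodule.iSup_induction' with
    | mem j v hv =>
      by_cases h : j = i
      · subst h
        rw [hπ, hπ, hI.ofBijective_coeLinearMap_of_mem hv,
          hI.ofBijective_coeLinearMap_of_mem (hW j v hv)]
      · rw [hπ, hπ, hI.ofBijective_coeLinearMap_of_mem_ne h hv,
          hI.ofBijective_coeLinearMap_of_mem_ne (σ.injective.ne h) (hW j v hv)]
        simp
    | zero => simp
    | add x y _ _ hx hy => simp only [map_add, Submodule.coe_add, hx, hy]
  let O := MulAction.orbitRel.Quotient (zpowers σ) ι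
  have := Fintype.ofFinite O
  let Φ : LinearMap.ker (T - 1) →ₗ[K] ∀ o : O, W (Quotient.out o) :=
    LinearMap.pi fun o => (π (Quotient.out o)).comp (Submodule.subtype _)
  have hΦ : Function.Injective Φ := by
    rw [injective_iff_map_eq_zero]
    rintro ⟨v, hv⟩ h0
    have hv' : T v = v := by simpa [sub_eq_zero] using hv
    have h1 : ∀ (k : ℕ) j, π j v = 0 → π ((σ ^ k) j) v = 0 := by
      intro k j hj
      induction k with
      | zero => exact hj
      | succ k ih =>
        have := hT v ((σ ^ k) j)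
        rw [hv', ih] at this
        rw [pow_succ', Equiv.Perm.mul_apply]
        exact Subtype.ext (by simpa using this)
    have h2 : ∀ i, π i v = 0 := by
      intro i
      obtain ⟨⟨g, hg⟩, h3⟩ := Quotient.exact (Quotient.out_eq (Quotient.mk _ i : O)).symm
      obtain ⟨k, rfl⟩ := mem_powers_iff_mem_zpowers.2 hg
      have h4 := h1 k _ (congrFun h0 (Quotient.mk _ i : O))
      have h5 : (σ ^ k) (Quotient.out (Quotient.mk _ i : O)) = i := h3
      rwa [h5] at h4
    have h3 : e.symm v = 0 := DFinsupp.ext h2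
    exact Subtype.ext (by simpa using h3)
  have h1 := LinearMap.finrank_le_finrank_of_injective hΦ
  rw [finrank_pi_fintype] at h1
  simp only [hd, Finset.sum_const, Finset.card_univ, smul_eq_mul] at h1
  rw [← card_orbits hp σ hσ, Nat.card_eq_fintype_card]
  calc p * finrank K (LinearMap.ker (T - 1)) ≤ p * (Fintype.card O * d) := Nat.mul_le_mul_left _ h1
    _ = d * (p * Fintype.card O) := by ring

/-- weight spaces -/
def wt {A : Type*} (τ : A → End K U) (χ : A → K) : Submodule K U := ⨅ a, (τ a).eigenspace (χ a)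

omit [FiniteDimensional K U] in
theorem mem_wt {A : Type*} {τ : A → End K U} {χ : A → K} {v : U} :
    v ∈ wt τ χ ↔ ∀ a, τ a v = χ a • v := by
  simp [wt, Submodule.mem_iInf]

omit [FiniteDimensional K U] in
theorem wt_indep {A : Type*} (τ : A → End K U) (h : ∀ a b, Commute (τ a) (τ b)) :
    iSupIndep (wt τ) :=
  (End.independent_iInf_maxGenEigenspace_of_forall_mapsTo τ
    fun i j φ => End.mapsTo_maxGenEigenspace_of_comm (h j i) φ).mono fun χ =>
      iInf_mono fun a => End.eigenspace_le_maxGenEigenspace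

omit [FiniteDimensional K U] in
theorem wt_top {A : Type*} [Group A] [Finite A] (τ : A →* End K U) (β : A → A →* K)
    (hβ : ∀ f, f ≠ 1 → ∃ γ : A →* K, γ ≠ 1 ∧ ∀ a, β a f = γ a) (hA : (Nat.card A : K) ≠ 0) :
    ⨆ a, wt τ (β a) = ⊤ := by
  classical
  have := Fintype.ofFinite A
  rw [eq_top_iff]
  intro v _
  have h1 : ∀ a, ∑ f, β a f⁻¹ • τ f v ∈ wt τ (β a) := by
    intro a
    rw [mem_wt]
    intro g
    rw [map_sum, Finset.smul_sum]
    refine Fintype.sum_equiv (Equiv.mulLeft g) _ _ fun f => ?_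
    rw [map_smul, Equiv.coe_mulLeft, smul_smul, map_mul τ, End.mul_apply]
    congr 1
    rw [mul_inv_rev, map_mul, mul_comm (β a f⁻¹), ← mul_assoc, ← map_mul, mul_inv_cancel, map_one,
      one_mul]
  have h2 : ∑ a, ∑ f, β a f⁻¹ • τ f v = (Nat.card A : K) • v := by
    rw [Finset.sum_comm, Finset.sum_eq_single 1]
    · simp [Nat.card_eq_fintype_card, Nat.cast_smul_eq_nsmul]
    · intro f _ hf
      obtain ⟨γ, h1, h2⟩ := hβ f⁻¹ (inv_ne_one.2 hf)
      rw [← Finset.sum_smul]
      simp only [h2]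
      rw [sum_hom_units_eq_zero γ h1, zero_smul]
    · simp
  have h3 : (Nat.card A : K) • v ∈ ⨆ a, wt τ (β a) :=
    h2 ▸ Submodule.sum_mem _ fun a _ => Submodule.mem_iSup_of_mem a (h1 a)
  have := Submodule.smul_mem _ (Nat.card A : K)⁻¹ h3
  rwa [smul_smul, inv_mul_cancel₀ hA, one_smul] at this

end L

section Three
variable {G : Type*} [Group G]

theorem three_aux {x n : G} {m : ℕ} (hm : Odd m) (hx : x ^ m = 1) {N : Subgroup G} [hN : N.Normal]
    (hc : ∀ a ∈ N, ∀ b ∈ N, a * b = b * a) (hn : n ∈ N) (h : ¬ Commute x n) :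
    ∃ k ∈ N, (k = n * n ∨ k = x⁻¹ * n * x) ∧ ¬ Commute x k ∧ ¬ Commute x (n⁻¹ * k) := by
  by_cases h2 : Commute x (n * n)
  · have h3 : x⁻¹ * n * x ∈ N := hN.conj_mem' n hn x
    refine ⟨_, h3, Or.inr rfl, fun e => h ?_, fun e => h ?_⟩
    · have := e.eq
      calc x * n = x * (x * (x⁻¹ * n * x)) * x⁻¹ := by group
        _ = x * (x⁻¹ * n * x * x) * x⁻¹ := by rw [this]
        _ = n * x := by group
    · set c := n⁻¹ * (x⁻¹ * n * x) with hc'
      have hcN : c ∈ N := N.mul_mem (N.inv_mem hn) h3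
      have e1 : x⁻¹ * n * x = n * c := by rw [hc']; group
      have e2 : x⁻¹ * c * x = c := by rw [mul_assoc, ← e.eq]; group
      have e3 : c * c = 1 := by
        have e4 : x⁻¹ * (n * n) * x = n * n := by rw [mul_assoc, ← h2.eq]; group
        have e5 : x⁻¹ * (n * n) * x = (x⁻¹ * n * x) * (x⁻¹ * n * x) := by group
        rw [e5, e1, mul_assoc n c, ← mul_assoc c, hc c hcN n hn, mul_assoc n c, ← mul_assoc] at e4
        simpa using e4
      have e6 : Commute (x * x) n := by
        have : x⁻¹ * (x⁻¹ * n * x) * x = n := by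
          rw [e1]
          calc x⁻¹ * (n * c) * x = (x⁻¹ * n * x) * (x⁻¹ * c * x) := by group
            _ = n := by rw [e1, e2, mul_assoc, e3, mul_one]
        calc x * x * n = x * x * (x⁻¹ * (x⁻¹ * n * x) * x) := by rw [this]
          _ = n * (x * x) := by group
      obtain ⟨k, rfl⟩ := hm
      have e7 : x = (x * x) ^ (k + 1) := by
        rw [← sq, ← pow_mul, show 2 * (k + 1) = (2 * k + 1) + 1 by ring, pow_succ, hx, one_mul]
      rw [e7]
      exact e6.pow_left _
  · exact ⟨_, N.mul_mem hn hn, Or.inl rfl, h2, by rwa [inv_mul_cancel_left]⟩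

theorem three [Finite G] [Group.IsSolvable G] {x : G} {m : ℕ} (hm : Odd m) (hx : x ^ m = 1)
    (hgen : normalClosure ({x} : Set G) = ⊤) {H : Subgroup G} (hH : H ≠ ⊤) :
    ∃ a b : G, ∀ n, (n = a ∨ n = b ∨ n = a⁻¹ * b) → ∀ g, g⁻¹ * x * g ∈ H →
      (n * g)⁻¹ * x * (n * g) ∉ H := by
  obtain ⟨M, hM, hHM⟩ := (eq_top_or_exists_le_coatom H).resolve_left hH
  by_cases h0 : ∀ g, g⁻¹ * x * g ∉ M
  · exact ⟨1, 1, fun n _ g hg _ => h0 g (hHM hg)⟩
  push Not at h0
  obtain ⟨g0, hg0⟩ := h0
  obtain ⟨N, ⟨hN, hNM⟩, hmin⟩ := exists_minimal_of_wellFoundedLT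
    (fun N : Subgroup G => N.Normal ∧ ¬ N ≤ M) ⟨⊤, inferInstance, fun h => hM.1 (top_le_iff.1 h)⟩
  have hN0 : N ≠ ⊥ := by rintro rfl; exact hNM bot_le
  have hlt : ⁅N, N⁆ < N := H1.commutator_self_lt_of_isSolvable inferInstance hN0
  have hNN : ⁅N, N⁆ ≤ M := by
    by_contra h
    exact hlt.not_ge (hmin ⟨inferInstance, h⟩ hlt.le)
  have htop : M ⊔ N = ⊤ := hM.2 _ (lt_of_le_of_ne le_sup_left fun e => hNM (e ▸ le_sup_right))
  have hK : (N ⊓ M).Normal := by
    rw [← normalizer_eq_top_iff, eq_top_iff, ← htop]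
    refine sup_le (H2.le_normalizer_inf le_normalizer_of_normal le_normalizer) ?_
    rw [le_normalizer_iff_commutator_le_left]
    exact (commutator_mono inf_le_left le_rfl).trans (le_inf hlt.le hNN)
  let f := QuotientGroup.mk' (N ⊓ M)
  have hf : Function.Surjective f := QuotientGroup.mk'_surjective _
  have hker : ∀ g, f g = 1 ↔ g ∈ N ⊓ M := fun g => QuotientGroup.eq_one_iff g
  have key : ∀ n ∈ N, ∀ g, g⁻¹ * x * g ∈ H → (n * g)⁻¹ * x * (n * g) ∈ H →
      Commute (f x) (f n) := by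
    intro n hn g h1 h2
    have h3 : (g⁻¹ * x * g)⁻¹ * ((n * g)⁻¹ * x * (n * g)) ∈ N ⊓ M := by
      refine ⟨?_, M.mul_mem (M.inv_mem (hHM h1)) (hHM h2)⟩
      have := hN.conj_mem' _ (N.mul_mem (hN.conj_mem' _ (N.inv_mem hn) x) hn) g
      rw [show (g⁻¹ * x * g)⁻¹ * ((n * g)⁻¹ * x * (n * g)) = g⁻¹ * (x⁻¹ * n⁻¹ * x * n) * g by group]
      exact this
    have h4 := (hker _).2 (hK.conj_mem _ h3 g)
    rw [show g * ((g⁻¹ * x * g)⁻¹ * ((n * g)⁻¹ * x * (n * g))) * g⁻¹ = (n * x)⁻¹ * (x * n) by group,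
      map_mul, map_inv, inv_mul_eq_one, map_mul, map_mul] at h4
    exact h4.symm
  obtain ⟨n, hn, hxn⟩ : ∃ n ∈ N, ¬ Commute (f x) (f n) := by
    by_contra! h
    have h1 : (⊤ : Subgroup G) ≤ (centralizer (N.map f : Set _)).comap f := by
      have : (N.map f).Normal := hN.map f hf
      rw [← hgen]
      refine normalClosure_le_normal ?_
      rintro _ rfl _ ⟨n, hn, rfl⟩
      exact (h n hn).eq.symm
    have h2 : M.Normal := by
      rw [← normalizer_eq_top_iff, eq_top_iff, ← htop]
      refine sup_le le_normalizer ?_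
      rw [le_normalizer_iff_commutator_le_left, commutator_le]
      intro a _ b hb
      refine ((hker _).1 ?_).2
      rw [map_commutatorElement, commutatorElement_eq_one_iff_mul_comm]
      exact (h1 (mem_top a) _ ⟨b, hb, rfl⟩).symm
    apply hM.1
    rw [eq_top_iff, ← hgen]
    refine normalClosure_le_normal ?_
    rintro _ rfl
    simpa [mul_assoc] using h2.conj_mem _ hg0 g0
  have : (N.map f).Normal := hN.map f hf
  obtain ⟨k, -, hk, h1, h2⟩ := three_aux (x := f x) (N := N.map f) hm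
    (by rw [← map_pow, hx, map_one]) (by
      rintro _ ⟨a, ha, rfl⟩ _ ⟨b, hb, rfl⟩
      rw [← commutatorElement_eq_one_iff_mul_comm, ← map_commutatorElement, hker]
      have := commutator_mem_commutator ha hb
      exact ⟨hlt.le this, hNN this⟩) ⟨n, hn, rfl⟩ hxn
  obtain ⟨k', hk', rfl⟩ : ∃ k' ∈ N, f k' = k := by
    rcases hk with rfl | rfl
    · exact ⟨n * n, N.mul_mem hn hn, map_mul _ _ _⟩
    · exact ⟨x⁻¹ * n * x, hN.conj_mem' n hn x, by simp⟩
  refine ⟨n, k', ?_⟩
  rintro _ (rfl | rfl | rfl) g h3 h4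
  · exact hxn (key _ hn g h3 h4)
  · exact h1 (key _ hk' g h3 h4)
  · exact h2 (by simpa using key _ (N.mul_mem (N.inv_mem hn) hk') g h3 h4)

theorem fpr [Finite G] [Group.IsSolvable G] {x : G} {m : ℕ} (hm : Odd m) (hx : x ^ m = 1)
    (hgen : normalClosure ({x} : Set G) = ⊤) {Ω : Type*} [Finite Ω] [Nontrivial Ω] [MulAction G Ω]
    [MulAction.IsPretransitive G Ω] : 3 * Nat.card {ω : Ω // x • ω = ω} ≤ Nat.card Ω := by
  obtain ⟨ω0, ω1, h01⟩ := exists_pair_ne Ω
  have hH : MulAction.stabilizer G ω0 ≠ ⊤ := by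
    intro h
    obtain ⟨g, hg⟩ := MulAction.exists_smul_eq G ω0 ω1
    have : g ∈ MulAction.stabilizer G ω0 := h ▸ mem_top g
    exact h01 (this.symm.trans hg)
  obtain ⟨a, b, hab⟩ := three hm hx hgen hH
  have key : ∀ n, (n = a ∨ n = b ∨ n = a⁻¹ * b) → ∀ ω : Ω, x • ω = ω → x • n • ω ≠ n • ω := by
    intro n hn ω h1 h2
    obtain ⟨g, rfl⟩ := MulAction.exists_smul_eq G ω0 ω
    refine hab n hn g ?_ ?_
    · rw [MulAction.mem_stabilizer_iff, mul_smul, mul_smul, h1, inv_smul_smul]
    · rw [MulAction.mem_stabilizer_iff, mul_smul, mul_smul, mul_smul n, h2, ← mul_smul n,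
        inv_smul_smul]
  let F := {ω : Ω // x • ω = ω}
  let Φ : F ⊕ F ⊕ F → Ω := Sum.elim (fun ω => ω.1) (Sum.elim (fun ω => a • ω.1) fun ω => b • ω.1)
  have hΦ : Function.Injective Φ := by
    have e1 : ∀ u v : F, u.1 ≠ a • v.1 := fun u v h => key a (Or.inl rfl) v v.2 (h ▸ u.2)
    have e2 : ∀ u v : F, u.1 ≠ b • v.1 := fun u v h => key b (Or.inr (Or.inl rfl)) v v.2 (h ▸ u.2)
    have e3 : ∀ u v : F, a • u.1 ≠ b • v.1 := fun u v h =>
      key _ (Or.inr (Or.inr rfl)) v v.2 (by rw [mul_smul, ← h, inv_smul_smul]; exact u.2)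
    rintro (u | u | u) (v | v | v) h
    · rw [Subtype.ext h]
    · exact absurd h (e1 u v)
    · exact absurd h (e2 u v)
    · exact absurd h.symm (e1 v u)
    · rw [Subtype.ext (smul_left_cancel a h)]
    · exact absurd h (e3 u v)
    · exact absurd h.symm (e2 v u)
    · exact absurd h.symm (e3 v u)
    · rw [Subtype.ext (smul_left_cancel b h)]
  have := Nat.card_le_card_of_injective Φ hΦ
  rw [Nat.card_sum, Nat.card_sum] at this
  change Nat.card F + (Nat.card F + Nat.card F) ≤ _ at this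
  change 3 * Nat.card F ≤ _
  omega

end Three

end H26.FF
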