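import Cfsg.Agent.Lib.Flav26.Fix1

/-! Fixed spaces of elements of prime order: the two linear cases (helper26). -/

set_option autoImplicit false

namespace H26.FF
open Module Subgroup
open scoped commutatorElement

variable {K V G : Type*} [Field K] [AddCommGroup V] [Module K V] [FiniteDimensional K V] [Group G]

omit [FiniteDimensional K V] in
theorem rho_inj (ρ : G →* End K V) (x : G) : Function.Injective (ρ x) := fun u v h => by
  have := congrArg (ρ x⁻¹) h
  rwa [← End.mul_apply, ← End.mul_apply, ← map_mul, inv_mul_cancel, map_one, End.one_apply,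
    End.one_apply] at this

theorem finrank_le_of_mapsTo (φ : V →ₗ[K] V) (hφ : Function.Injective φ) {A B : Submodule K V}
    (h : ∀ v ∈ A, φ v ∈ B) : finrank K A ≤ finrank K B :=
  LinearMap.finrank_le_finrank_of_injective (f := φ.restrict h) fun _ _ e =>
    Subtype.ext (hφ (congrArg Subtype.val e))

theorem caseA [IsAlgClosed K] [Nontrivial V] [Finite G] [Group.IsSolvable G] (ρ : G →* End K V)
    (hf : Function.Injective ρ)
    (hirr : ∀ W : Submodule K V, (∀ g, ∀ v ∈ W, ρ g v ∈ W) → W = ⊥ ∨ W = ⊤) {x : G} {p : ℕ}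
    (hp : p.Prime) (h5 : 5 ≤ p) (hx : x ^ p = 1) (hgen : normalClosure ({x} : Set G) = ⊤)
    {A : Subgroup G} [hAn : A.Normal] (hA : ∀ a ∈ A, ∀ b ∈ A, a * b = b * a)
    (hAZ : ¬ A ≤ center G) : 2 * finrank K (LinearMap.ker (ρ x - 1)) < finrank K V := by
  let τ : A → End K V := fun a => ρ a
  have hc : ∀ a b, Commute (τ a) (τ b) := fun a b => by
    change ρ a * ρ b = ρ b * ρ a
    rw [← map_mul, ← map_mul, hA a a.2 b b.2]
  obtain ⟨v0, -, hv0, hw⟩ := H46.exists_common_eigenvector (Set.range τ)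
    (by rintro _ ⟨a, rfl⟩ _ ⟨b, rfl⟩; exact hc a b) ⊤ (fun _ _ _ _ => Submodule.mem_top) top_ne_bot
  choose χ0 hχ0 using fun a => hw _ ⟨a, rfl⟩
  letI : MulAction G (A → K) :=
    { smul := fun g χ a => χ ⟨g⁻¹ * a * g, hAn.conj_mem' _ a.2 g⟩
      one_smul := fun χ => funext fun a => congrArg χ (Subtype.ext (by simp))
      mul_smul := fun g h χ => funext fun a => congrArg χ (Subtype.ext (by simp [mul_assoc])) }
  have hsm : ∀ (g : G) (χ : A → K) a, (g • χ) a = χ ⟨g⁻¹ * a * g, hAn.conj_mem' _ a.2 g⟩ :=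
    fun _ _ _ => rfl
  have hW : ∀ (g : G) (χ : A → K), ∀ v ∈ wt τ χ, ρ g v ∈ wt τ (g • χ) := by
    intro g χ v hv
    rw [mem_wt] at hv ⊢
    intro a
    rw [hsm, ← map_smul, ← hv]
    change (ρ a * ρ g) v = (ρ g * ρ (g⁻¹ * a * g)) v
    rw [← map_mul, ← map_mul]
    congr 2; group
  let Ω := MulAction.orbit G χ0
  have : Finite Ω := (Set.finite_range _).to_subtype
  let ω0 : Ω := ⟨χ0, MulAction.mem_orbit_self χ0⟩
  have hv0W : v0 ∈ wt τ χ0 := mem_wt.2 hχ0
  have htop : ⨆ ω : Ω, wt τ ω.1 = ⊤ := by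
    refine (hirr _ fun g v hv => ?_).resolve_left fun h => hv0 ?_
    · induction hv using Submodule.iSup_induction' with
      | mem ω v hv => exact Submodule.mem_iSup_of_mem (g • ω) (hW g _ v hv)
      | zero => simp
      | add u v _ _ hu hv => rw [map_add]; exact Submodule.add_mem _ hu hv
    · rw [← Submodule.mem_bot K, ← h]
      exact Submodule.mem_iSup_of_mem ω0 hv0W
  have hnt : Nontrivial Ω := by
    by_contra h
    rw [not_nontrivial_iff_subsingleton] at h
    have h1 : wt τ χ0 = ⊤ := by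
      rw [eq_top_iff, ← htop]
      exact iSup_le fun ω => by rw [Subsingleton.elim ω ω0]
    refine hAZ fun a ha => mem_center_iff.2 fun g => hf ?_
    have h2 : ρ a = χ0 ⟨a, ha⟩ • (1 : End K V) :=
      LinearMap.ext fun v => mem_wt.1 (h1 ▸ Submodule.mem_top : v ∈ wt τ χ0) ⟨a, ha⟩
    rw [map_mul, map_mul, h2]
    simp
  have hd : ∀ ω : Ω, finrank K (wt τ ω.1) = finrank K (wt τ χ0) := by
    rintro ⟨_, g, rfl⟩
    refine le_antisymm ?_ (finrank_le_of_mapsTo _ (rho_inj ρ g) (hW g χ0))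
    have := finrank_le_of_mapsTo _ (rho_inj ρ g⁻¹) (hW g⁻¹ (g • χ0))
    rwa [inv_smul_smul] at this
  obtain ⟨h1, h2⟩ := fix_bound hp (MulAction.toPermHom G Ω x) (by rw [← map_pow, hx, map_one])
    (ρ x) (fun ω : Ω => wt τ ω.1) ((wt_indep τ hc).comp Subtype.val_injective) htop
    (fun ω => hW x ω.1) hd
  have h3 : 3 * Nat.card {ω : Ω // MulAction.toPermHom G Ω x ω = ω} ≤ Nat.card Ω :=
    fpr (hp.odd_of_ne_two (by omega)) hx hgen
  have h4 : 0 < finrank K V := finrank_pos
  generalize Nat.card {ω : Ω // MulAction.toPermHom G Ω x ω = ω} = f at h2 h3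
  generalize finrank K (wt τ χ0) = d at h1 h2
  generalize finrank K (LinearMap.ker (ρ x - 1)) = c at h2 ⊢
  generalize Nat.card Ω = m at h1 h2 h3
  obtain ⟨r, rfl⟩ : ∃ r, p = r + 1 := ⟨p - 1, by omega⟩
  rw [← h1] at h4 ⊢
  rw [Nat.add_sub_cancel] at h2
  by_contra! h
  have h6 : d * (r * (3 * f)) ≤ d * (r * m) := Nat.mul_le_mul_left _ (Nat.mul_le_mul_left _ h3)
  have h7 : (r + 1) * (m * d) ≤ (r + 1) * (2 * c) := Nat.mul_le_mul_left _ h
  have h8 : 4 * (m * d) ≤ r * (m * d) := Nat.mul_le_mul_right _ (by omega)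
  nlinarith

theorem sq_lt_comm (T : End K V) (hT : T ≠ 1) {S : Submodule K (End K V)}
    (hS : ∀ F : End K V, T * F = F * T → F ∈ S) :
    finrank K (LinearMap.ker (T - 1)) ^ 2 < finrank K S := by
  let Ψ : ((V ⧸ LinearMap.range (T - 1)) →ₗ[K] LinearMap.ker (T - 1)) →ₗ[K] End K V :=
    { toFun := fun F => (Submodule.subtype _).comp (F.comp (Submodule.mkQ _))
      map_add' := fun _ _ => rfl
      map_smul' := fun _ _ => rfl }
  have hΨ : Function.Injective Ψ := fun F F' h => by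
    ext v
    exact LinearMap.congr_fun h v
  have hlt : LinearMap.range Ψ < S := by
    refine lt_of_le_of_ne ?_ fun e => hT ?_
    · rintro _ ⟨F, rfl⟩
      refine hS _ (LinearMap.ext fun v => ?_)
      have h1 : T (F (Submodule.mkQ _ v)) = F (Submodule.mkQ _ v) := by
        have := (F (Submodule.mkQ _ v)).2
        rwa [LinearMap.mem_ker, LinearMap.sub_apply, sub_eq_zero] at this
      have h2 : Submodule.mkQ (LinearMap.range (T - 1)) (T v) = Submodule.mkQ _ v :=
        (Submodule.Quotient.eq _).2 ⟨v, rfl⟩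
      change T (F (Submodule.mkQ _ v)) = F (Submodule.mkQ _ (T v))
      rw [h1, h2]
    · obtain ⟨F, hF⟩ : (1 : End K V) ∈ LinearMap.range Ψ := e ▸ hS 1 (by simp)
      ext v
      have h1 : (F (Submodule.mkQ _ v) : V) = v := LinearMap.congr_fun hF v
      have := (F (Submodule.mkQ _ v)).2
      rwa [h1, LinearMap.mem_ker, LinearMap.sub_apply, sub_eq_zero] at this
  have h1 := Submodule.finrank_lt_finrank_of_lt hlt
  rw [LinearMap.finrank_range_of_inj hΨ, finrank_linearMap] at h1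
  have h2 := (LinearMap.range (T - 1)).finrank_quotient_add_finrank
  have h3 := (T - 1).finrank_range_add_finrank_ker
  rwa [show finrank K (V ⧸ LinearMap.range (T - 1)) = finrank K (LinearMap.ker (T - 1)) by omega,
    ← sq] at h1

theorem comm_mul_left {u v w : G} (h : ⁅v, w⁆ ∈ center G) : ⁅u * v, w⁆ = ⁅u, w⁆ * ⁅v, w⁆ := by
  have h1 := mem_center_iff.1 h
  calc ⁅u * v, w⁆ = u * ⁅v, w⁆ * (u⁻¹ * ⁅u, w⁆) := by simp only [commutatorElement_def]; group
    _ = _ := by rw [mul_assoc, ← h1]; group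

theorem comm_mul_right {u v w : G} (h : ⁅w, v⁆ ∈ center G) : ⁅w, u * v⁆ = ⁅w, u⁆ * ⁅w, v⁆ := by
  have h1 := mem_center_iff.1 h
  calc ⁅w, u * v⁆ = ⁅w, u⁆ * (u * ⁅w, v⁆) * u⁻¹ := by simp only [commutatorElement_def]; group
    _ = _ := by rw [h1]; group

theorem comm_congr {u u' v v' : G}
    (h : QuotientGroup.mk' (center G) u = QuotientGroup.mk' (center G) u')
    (h' : QuotientGroup.mk' (center G) v = QuotientGroup.mk' (center G) v') : ⁅u, v⁆ = ⁅u', v'⁆ := by
  obtain ⟨z, hz, rfl⟩ := (QuotientGroup.mk'_eq_mk' _).1 h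
  obtain ⟨z', hz', rfl⟩ := (QuotientGroup.mk'_eq_mk' _).1 h'
  have e : ∀ w : G, ⁅z, w⁆ = 1 := fun w =>
    commutatorElement_eq_one_iff_mul_comm.2 (mem_center_iff.1 hz w).symm
  have e' : ∀ w : G, ⁅w, z'⁆ = 1 := fun w =>
    commutatorElement_eq_one_iff_mul_comm.2 (mem_center_iff.1 hz' w)
  rw [comm_mul_left (by rw [e]; exact one_mem _), e, mul_one,
    comm_mul_right (by rw [e']; exact one_mem _), e', mul_one]

theorem comm_conj {u v : G} (h : ⁅u, v⁆ ∈ center G) (g : G) :
    ⁅g * u * g⁻¹, g * v * g⁻¹⁆ = ⁅u, v⁆ := by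
  rw [← conjugate_commutatorElement, mem_center_iff.1 h g, mul_inv_cancel_right]

theorem caseB [Nontrivial V] [Finite G] (ρ : G →* End K V) (hf : Function.Injective ρ)
    (hZ : ∀ z ∈ center G, ∃ c : K, ρ z = c • 1) {x : G} {p : ℕ} (hp : p.Prime) (hx : x ^ p = 1)
    (hx1 : x ≠ 1) {E : Subgroup G} [hE : E.Normal] (hEE : ⁅E, E⁆ ≤ center G)
    (hEC : E ⊓ centralizer (E : Set G) ≤ center G)
    (hq : (Nat.card (E.map (QuotientGroup.mk' (center G))) : K) ≠ 0)
    (hnum : 4 * (Nat.card (E.map (QuotientGroup.mk' (center G))) + (p - 1) *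
      Nat.card ↥(E.map (QuotientGroup.mk' (center G)) ⊓
        centralizer {QuotientGroup.mk' (center G) x})) ≤
      p * Nat.card (E.map (QuotientGroup.mk' (center G)))) :
    2 * finrank K (LinearMap.ker (ρ x - 1)) < finrank K V := by
  set π := QuotientGroup.mk' (center G) with hπ
  set A := E.map π with hA
  have hAn : A.Normal := hE.map π (QuotientGroup.mk'_surjective _)
  choose! s hs using hZ
  have h1 : (1 : End K V) ≠ 0 := one_ne_zero
  have hs1 : ∀ z ∈ center G, s z = 1 ↔ z = 1 := fun z hz =>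
    ⟨fun h => hf (by rw [hs z hz, h, one_smul, map_one]), fun h => smul_left_injective K h1 (by
      change s z • (1 : End K V) = (1 : K) • 1
      rw [← hs z hz, h, map_one, one_smul])⟩
  have hsm : ∀ z ∈ center G, ∀ z' ∈ center G, s (z * z') = s z * s z' := fun z hz z' hz' =>
    smul_left_injective K h1 (by
      change s (z * z') • (1 : End K V) = (s z * s z') • 1
      rw [← hs _ (mul_mem hz hz'), map_mul, hs z hz, hs z' hz', smul_mul_smul_comm, mul_one])
  have hc : ∀ u ∈ E, ∀ v ∈ E, ⁅u, v⁆ ∈ center G := fun u hu v hv =>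
    hEE (commutator_mem_commutator hu hv)
  have hl0 : ∀ a : A, ∃ u ∈ E, π u = a := fun a => a.2
  choose l hlE hl using hl0
  have hND : ∀ u ∈ E, (∀ a, ⁅u, l a⁆ = 1) → π u = 1 := by
    intro u hu h
    refine (QuotientGroup.eq_one_iff u).2 (hEC ⟨hu, fun v hv => ?_⟩)
    rw [eq_comm, ← commutatorElement_eq_one_iff_mul_comm, ← h ⟨π v, v, hv, rfl⟩]
    exact comm_congr rfl (hl ⟨π v, v, hv, rfl⟩).symm
  let τ : G →* End K (End K V) := Representation.linHom ρ ρ
  have hτ : ∀ g F, τ g F = ρ g * F * ρ g⁻¹ := fun _ _ => rfl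
  have hτZ : ∀ z ∈ center G, τ z = 1 := fun z hz => LinearMap.ext fun F => by
    rw [hτ, hs z hz, smul_mul_assoc, one_mul, smul_mul_assoc, ← mul_smul_comm, ← one_mul (ρ z⁻¹),
      ← smul_mul_assoc, ← hs z hz, ← map_mul, mul_inv_cancel, map_one, mul_one, End.one_apply]
  let τ' : A →* End K (End K V) := (QuotientGroup.lift _ τ hτZ).comp A.subtype
  have hτ' : ∀ u (hu : u ∈ E), τ' ⟨π u, u, hu, rfl⟩ = τ u := fun _ _ => rfl
  let β : A → A →* K := fun a =>
    { toFun := fun f => s ⁅l f, l a⁆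
      map_one' := (hs1 _ (hc _ (hlE _) _ (hlE _))).2 (by
        rw [comm_congr (u' := 1) (v' := l a) (by rw [hl]; rfl) rfl, commutatorElement_one_left])
      map_mul' := fun f g => by
        rw [← hsm _ (hc _ (hlE _) _ (hlE _)) _ (hc _ (hlE _) _ (hlE _)),
          ← comm_mul_left (hc _ (hlE _) _ (hlE _))]
        exact congrArg s (comm_congr (by rw [map_mul, hl, hl, hl]; rfl) rfl) }
  have hmem : ∀ a F, F ∈ wt τ' (β a) ↔ ∀ u ∈ E, τ u F = s ⁅u, l a⁆ • F := by
    intro a F
    rw [mem_wt]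
    constructor
    · intro h u hu
      rw [← hτ' u hu, h]
      exact congrArg (fun t => s t • F) (comm_congr (hl _) rfl)
    · intro h f
      rw [show β a f = s ⁅l f, l a⁆ from rfl, ← h _ (hlE f), ← hτ' _ (hlE f)]
      congr 2
      exact Subtype.ext (hl f).symm
  have hAc : ∀ a b : A, a * b = b * a := fun a b => Subtype.ext (by
    rw [Subgroup.coe_mul, Subgroup.coe_mul, ← hl, ← hl, ← commutatorElement_eq_one_iff_mul_comm,
      ← map_commutatorElement]
    exact (QuotientGroup.eq_one_iff _).2 (hc _ (hlE _) _ (hlE _)))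
  have hind : iSupIndep fun a => wt τ' (β a) := by
    refine (wt_indep τ' fun a b => ?_).comp (f := fun a => (β a : A → K)) fun a b h => ?_
    · change τ' a * τ' b = τ' b * τ' a
      rw [← map_mul, ← map_mul, hAc]
    · have h2 := hND (l a * (l b)⁻¹) (E.mul_mem (hlE a) (E.inv_mem (hlE b))) fun f => by
        have h3 : s ⁅l f, l a⁆ = s ⁅l f, l b⁆ := congrFun h f
        have h4 : ⁅l f, l a⁆ = ⁅l f, l b⁆ := hf (by
          rw [hs _ (hc _ (hlE _) _ (hlE _)), hs _ (hc _ (hlE _) _ (hlE _)), h3])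
        rw [← inv_eq_one, commutatorElement_inv,
          comm_mul_right (hc _ (hlE _) _ (E.inv_mem (hlE _))), h4,
          ← comm_mul_right (hc _ (hlE _) _ (E.inv_mem (hlE _))), mul_inv_cancel,
          commutatorElement_one_right]
      rw [map_mul, map_inv, hl, hl, mul_inv_eq_one] at h2
      exact Subtype.ext h2
  have htop : ⨆ a, wt τ' (β a) = ⊤ := by
    refine wt_top τ' β (fun f hf1 => ⟨?_, ?_, fun a => ?_⟩) hq
    · exact
      { toFun := fun a => s ⁅l f, l a⁆
        map_one' := (hs1 _ (hc _ (hlE _) _ (hlE _))).2 (by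
          rw [comm_congr (u' := l f) (v' := 1) rfl (by rw [hl]; rfl), commutatorElement_one_right])
        map_mul' := fun a b => by
          rw [← hsm _ (hc _ (hlE _) _ (hlE _)) _ (hc _ (hlE _) _ (hlE _)),
            ← comm_mul_right (hc _ (hlE _) _ (hlE _))]
          exact congrArg s (comm_congr rfl (by rw [map_mul, hl, hl, hl]; rfl)) }
    · intro e
      have := hND (l f) (hlE f) fun a =>
        (hs1 _ (hc _ (hlE _) _ (hlE _))).1 (DFunLike.congr_fun e a)
      rw [hl] at this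
      exact hf1 (Subtype.ext this)
    · rfl
  let σ : Equiv.Perm A := MulAut.toPerm A (MulAut.conjNormal (π x))
  have hσ : σ ^ p = 1 := by
    rw [← map_pow, ← map_pow, ← map_pow, hx, map_one, map_one, map_one]
  have hσa : ∀ a, (σ a : G ⧸ center G) = π x * a * (π x)⁻¹ := fun _ => rfl
  have hW : ∀ a, ∀ F ∈ wt τ' (β a), τ x F ∈ wt τ' (β (σ a)) := by
    intro a F hF
    rw [hmem] at hF ⊢
    intro u hu
    have h2 := hE.conj_mem' u hu x
    rw [← End.mul_apply, ← map_mul, show u * x = x * (x⁻¹ * u * x) by group, map_mul,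
      End.mul_apply, hF _ h2, map_smul, ← comm_conj (hc _ h2 _ (hlE a)) x]
    exact congrArg (fun t => s t • τ x F) (comm_congr (congrArg π (by group))
      (by rw [hl, hσa, map_mul, map_mul, map_inv, hl]))
  have hle : ∀ a b, finrank K (wt τ' (β a)) ≤ finrank K (wt τ' (β (b * a))) := by
    intro a b
    refine finrank_le_of_mapsTo (LinearMap.mulLeft K (ρ (l b))) (fun F F' h => ?_) fun F hF => ?_
    · have := congrArg (fun t => ρ (l b)⁻¹ * t) h
      simpa [← mul_assoc, ← map_mul] using this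
    · rw [hmem] at hF ⊢
      intro u hu
      have h2 : ρ u * ρ (l b) = s ⁅u, l b⁆ • (ρ (l b) * ρ u) := by
        rw [← smul_mul_assoc, ← one_mul (ρ (l b)), ← smul_mul_assoc, ← hs _ (hc _ hu _ (hlE b)),
          one_mul, ← map_mul, ← map_mul, ← map_mul]
        congr 1
        simp [commutatorElement_def]
      have h3 := hF u hu
      rw [hτ] at h3
      rw [LinearMap.mulLeft_apply, hτ, ← mul_assoc, h2, smul_mul_assoc, smul_mul_assoc,
        mul_assoc (ρ (l b)), mul_assoc (ρ (l b)), h3, mul_smul_comm, smul_smul,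
        ← hsm _ (hc _ hu _ (hlE _)) _ (hc _ hu _ (hlE _)), ← comm_mul_right (hc _ hu _ (hlE _))]
      exact congrArg (fun t => s t • (ρ (l b) * F))
        (comm_congr rfl (by rw [map_mul, hl, hl, hl]; rfl))
  have hd : ∀ a, finrank K (wt τ' (β a)) = finrank K (wt τ' (β 1)) := fun a =>
    le_antisymm (by have := hle a a⁻¹; rwa [inv_mul_cancel] at this)
      (by have := hle 1 a; rwa [mul_one] at this)
  obtain ⟨h2, h3⟩ := fix_bound hp σ hσ (τ x) _ hind htop hW hd
  have h4 : Nat.card {a // σ a = a} = Nat.card ↥(A ⊓ centralizer {π x}) := by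
    refine Nat.card_congr ⟨fun a => ⟨a.1.1, a.1.2, ?_⟩, fun a => ⟨⟨a.1, a.2.1⟩, ?_⟩,
      fun _ => rfl, fun _ => rfl⟩
    · have := congrArg Subtype.val a.2
      rw [hσa, mul_inv_eq_iff_eq_mul] at this
      exact mem_centralizer_singleton_iff.2 this.symm
    · refine Subtype.ext ?_
      rw [hσa, mul_inv_eq_iff_eq_mul]
      exact (mem_centralizer_singleton_iff.1 a.2.2).symm
  have h5 := sq_lt_comm (ρ x) (fun e => hx1 (hf (e.trans (map_one ρ).symm)))
    (S := LinearMap.ker (τ x - 1)) fun F hF => by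
      rw [LinearMap.mem_ker, LinearMap.sub_apply, hτ, hF, mul_assoc, ← map_mul, mul_inv_cancel,
        map_one, mul_one, End.one_apply, sub_self]
  rw [h4] at h3
  rw [finrank_linearMap] at h2
  generalize Nat.card A + (p - 1) * Nat.card ↥(A ⊓ centralizer {π x}) = t at h3 hnum
  generalize finrank K (wt τ' (β 1)) = d at h2 h3
  generalize finrank K (LinearMap.ker (τ x - 1)) = e at h3 h5
  generalize finrank K (LinearMap.ker (ρ x - 1)) = c at h5 ⊢
  generalize finrank K V = n at h2 ⊢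
  generalize Nat.card A = m at h2 hnum
  by_contra! h
  have h6 : d * (4 * t) ≤ d * (p * m) := Nat.mul_le_mul_left _ hnum
  have h7 : n * n ≤ (2 * c) * (2 * c) := Nat.mul_le_mul h h
  have h8 : p * (c ^ 2 + 1) ≤ p * e := Nat.mul_le_mul_left _ h5
  have h9 : p * (n * n) ≤ p * ((2 * c) * (2 * c)) := Nat.mul_le_mul_left _ h7
  have h10 : d * (p * m) = p * (n * n) := by rw [← h2]; ring
  have := hp.pos
  nlinarith

end H26.FF
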