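import Cfsg.Agent.Lib.Flav26.Fix2
import Cfsg.Agent.Lib.Thompson.Stable
import Cfsg.Agent.Lib.Core.MinNormal

/-! Flavell's bound on fixed spaces of generating elements of prime order `p > 3` in solvable
groups (helper26). -/

set_option autoImplicit false

namespace H26.FF
open Module Subgroup Cfsg
open scoped commutatorElement

section Grp
variable {G : Type*} [Group G]

theorem comm_pow_left {u v : G} (h : ∀ n : ℕ, ⁅u ^ n, v⁆ ∈ center G) (n : ℕ) :
    ⁅u ^ n, v⁆ = ⁅u, v⁆ ^ n := by
  induction n with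
  | zero => simp
  | succ n ih => rw [pow_succ', comm_mul_left (h n), ih, pow_succ']

theorem arith {p q N : ℕ} (hp : p.Prime) (h5 : 5 ≤ p) (hq : q.Prime) (h2 : q ^ 2 ∣ N) (h0 : 0 < N)
    (h : q ≠ p → p ∣ N + (p - 1)) : 4 * (N + (p - 1)) ≤ p * N := by
  have h3 := Nat.le_of_dvd h0 h2
  obtain ⟨r, rfl⟩ : ∃ r, p = r + 1 := ⟨p - 1, by omega⟩
  rw [Nat.add_sub_cancel] at *
  by_cases e : q = r + 1
  · subst e
    nlinarith
  obtain ⟨k, hk⟩ := h e
  have hq2 := hq.two_le
  have hN : 4 ≤ N := by nlinarith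
  have hk2 : 2 ≤ k := by
    by_contra! hk2
    interval_cases k <;> omega
  have hN2 : r + 2 ≤ N := by nlinarith
  by_cases h7 : 6 ≤ r
  · nlinarith
  have h6 : r ≠ 5 := by rintro rfl; exact absurd hp (by norm_num)
  obtain rfl : r = 4 := by omega
  by_contra! hlt
  have hq3 : q ≤ 3 := by nlinarith
  have : N = 6 ∨ N = 11 := by omega
  rcases this with rfl | rfl <;> interval_cases q <;> omega

theorem not_central {x : G} (hgen : normalClosure ({x} : Set G) = ⊤) {E : Subgroup G} [E.Normal]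
    (h : ⁅E, ⊤⁆ ≤ center G) : ⁅E, E⁆ = ⊥ := by
  have h0 : ⁅⁅E, (⊤ : Subgroup G)⁆, (⊤ : Subgroup G)⁆ = ⊥ := by
    rw [commutator_eq_bot_iff_le_centralizer, coe_top, centralizer_univ]; exact h
  have h1 : ⁅⁅(⊤ : Subgroup G), (⊤ : Subgroup G)⁆, E⁆ = ⊥ :=
    commutator_commutator_eq_bot_of_rotate (by rwa [commutator_comm ⊤ E]) h0
  rw [commutator_eq_bot_iff_le_centralizer] at h1 ⊢
  let f := QuotientGroup.mk' (centralizer (E : Set G))
  have hc : ∀ a b, f a * f b = f b * f a := fun a b => by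
    rw [← commutatorElement_eq_one_iff_mul_comm, ← map_commutatorElement]
    exact (QuotientGroup.eq_one_iff _).2 (h1 (commutator_mem_commutator (mem_top _) (mem_top _)))
  have hn : ((zpowers (f x)).comap f).Normal := ⟨fun a ha g => by
    rw [mem_comap, map_mul, map_mul, hc g a, mul_assoc, ← map_mul, mul_inv_cancel, map_one, mul_one]
    exact ha⟩
  have h2 : (⊤ : Subgroup G) ≤ (zpowers (f x)).comap f := by
    rw [← hgen]
    refine normalClosure_le_normal ?_
    rintro _ rfl
    exact mem_zpowers _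
  have : IsCyclic (G ⧸ centralizer (E : Set G)) := ⟨f x, fun y => by
    obtain ⟨g, rfl⟩ := QuotientGroup.mk'_surjective _ y
    exact h2 (mem_top g)⟩
  intro u hu v hv
  have := ((f.comp E.subtype).isMulCommutative_of_isCyclic_of_ker_le_center (fun a ha => by
    rw [mem_center_iff]
    intro b
    exact Subtype.ext ((QuotientGroup.eq_one_iff _).1 ha b b.2))).is_comm.comm ⟨v, hv⟩ ⟨u, hu⟩
  exact congrArg Subtype.val this

theorem central_of_quadratic [Finite G] [Group.IsSolvable G] {x : G} {p q : ℕ} (hp : p.Prime)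
    (h5 : 5 ≤ p) (hx : x ^ p = 1) (hgen : normalClosure ({x} : Set G) = ⊤) {A : Subgroup G}
    (hA : H3.IsMinNormal A) (hq : q.Prime) (hAq : IsPGroup q A)
    (h : ⁅⁅A, zpowers x⁆, zpowers x⁆ = ⊥) : A ≤ center G := by
  have := hA.normal
  have := Fact.mk hp
  have := Fact.mk hq
  by_cases e : q = p
  · subst e
    let φ : G →* MulAut A := MulAut.conjNormal
    have h1 := (H24.locallyStable_of_isPSolvable q h5 ((H3.isPSolvable_iff_isPiSeparable hq).2
      (H3.isPiSeparable_of_isSolvable _))).mem_pCore_top hAq φ.rangeRestrict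
      φ.rangeRestrict_surjective (fun g hg => Subtype.ext (MulEquiv.ext fun a => Subtype.ext (by
        change g * a * g⁻¹ = a
        rw [← hg a a.2, mul_inv_cancel_right]))) x (h.le.trans bot_le)
    have h2 : (⊤ : Subgroup G) ≤ (pCore q φ.range).comap φ.rangeRestrict := by
      rw [← hgen]
      refine normalClosure_le_normal ?_
      rintro _ rfl
      exact h1
    have h3 : IsPGroup q φ.range := fun y => by
      obtain ⟨g, rfl⟩ := φ.rangeRestrict_surjective y
      obtain ⟨k, hk⟩ := H1.isPGroup_pCore (p := q) ⟨_, h2 (mem_top g)⟩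
      exact ⟨k, congrArg Subtype.val hk⟩
    have := hA.nontrivial
    obtain ⟨b, hb, hb1⟩ := h3.exists_fixed_point_of_prime_dvd_card_of_fixed_point A
      (hAq.card_eq_or_dvd.resolve_left Finite.one_lt_card.ne') (a := 1)
      (fun y => map_one (y : MulAut A))
    rcases hA.inf_eq_bot_or_le (center G) with h4 | h4
    · refine absurd (Subtype.ext ?_) hb1
      rw [eq_comm, coe_one, ← mem_bot, ← h4]
      refine ⟨b.2, mem_center_iff.2 fun g => ?_⟩
      have : g * b * g⁻¹ = b := congrArg Subtype.val (hb (φ.rangeRestrict g))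
      rw [← mul_inv_eq_iff_eq_mul, this]
    · exact h4
  · have h1 := H2.commutator_eq_bot_of_commutator_commutator_eq_bot le_normalizer_of_normal
      (H2.coprime_card_of_isPGroup (p := q) (Nat.Coprime.coprime_dvd_left
        (by rw [Nat.card_zpowers]; exact orderOf_dvd_of_pow_eq_one hx)
        ((Nat.coprime_primes hp hq).2 (Ne.symm e))) hAq) h
    rw [commutator_comm, commutator_eq_bot_iff_le_centralizer] at h1
    have h2 : (⊤ : Subgroup G) ≤ centralizer (A : Set G) := by
      rw [← hgen]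
      refine normalClosure_le_normal ?_
      rintro _ rfl
      exact h1 (mem_zpowers _)
    intro a ha
    exact mem_center_iff.2 fun g => (h2 (mem_top g) a ha).symm

theorem groupB [Finite G] [Group.IsSolvable G] {x : G} {p : ℕ} (hp : p.Prime) (h5 : 5 ≤ p)
    (hx : x ^ p = 1) (hgen : normalClosure ({x} : Set G) = ⊤) {E : Subgroup G} [hE : E.Normal]
    (hmin : ∀ D : Subgroup G, D.Normal → D < E → D ≤ center G) (hna : ⁅E, E⁆ ≠ ⊥) :
    ⁅E, E⁆ ≤ center G ∧ E ⊓ centralizer (E : Set G) ≤ center G ∧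
    (∃ q : ℕ, q.Prime ∧ IsPGroup q (E.map (QuotientGroup.mk' (center G))) ∧
      ∃ z ∈ center G, z ≠ 1 ∧ z ^ q = 1) ∧
    4 * (Nat.card (E.map (QuotientGroup.mk' (center G))) + (p - 1) *
      Nat.card ↥(E.map (QuotientGroup.mk' (center G)) ⊓
        centralizer {QuotientGroup.mk' (center G) x})) ≤
      p * Nat.card (E.map (QuotientGroup.mk' (center G))) := by
  set π := QuotientGroup.mk' (center G) with hπ
  have hπs : Function.Surjective π := QuotientGroup.mk'_surjective _
  have hker : ∀ g, π g = 1 ↔ g ∈ center G := fun g => QuotientGroup.eq_one_iff g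
  set A := E.map π with hA
  have hAn : A.Normal := hE.map π hπs
  have hE0 : E ≠ ⊥ := by rintro rfl; exact hna (commutator_bot_left _)
  have hEE : ⁅E, E⁆ ≤ center G :=
    hmin _ inferInstance (H1.commutator_self_lt_of_isSolvable inferInstance hE0)
  have hEC : E ⊓ centralizer (E : Set G) ≤ center G := hmin _ inferInstance
    (lt_of_le_of_ne inf_le_left fun e => hna (commutator_eq_bot_iff_le_centralizer.2
      (e.ge.trans inf_le_right)))
  have hc : ∀ u ∈ E, ∀ v ∈ E, ⁅u, v⁆ ∈ center G := fun u hu v hv =>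
    hEE (commutator_mem_commutator hu hv)
  have hAZ : ¬ A ≤ center _ := fun h => hna (not_central hgen (by
    rw [commutator_le]
    intro u hu g _
    rw [← hker, map_commutatorElement, commutatorElement_eq_one_iff_mul_comm]
    exact (mem_center_iff.1 (h ⟨u, hu, rfl⟩) _).symm))
  have hAm : H3.IsMinNormal A := by
    refine ⟨hAn, fun e => hAZ (e ▸ bot_le), fun M hM hMA => ?_⟩
    rcases (inf_le_left : E ⊓ M.comap π ≤ E).lt_or_eq with h | h
    · left
      rw [eq_bot_iff]
      intro m hm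
      obtain ⟨u, hu, rfl⟩ := hMA hm
      exact (hker u).2 (hmin _ inferInstance h ⟨hu, hm⟩)
    · exact Or.inr (le_antisymm hMA (map_le_iff_le_comap.2 (h ▸ inf_le_right)))
  obtain ⟨hAc, q, hq, -, hAq, hAp⟩ := H3.IsMinNormal.elementary hAm inferInstance
  have hgen' : normalClosure ({π x} : Set _) = ⊤ := by
    rw [← Set.image_singleton, ← map_normalClosure _ _ hπs, hgen, map_top_of_surjective _ hπs]
  have hx' : π x ^ p = 1 := by rw [← map_pow, hx, map_one]
  refine ⟨hEE, hEC, ⟨q, hq, hAp, ?_⟩, ?_⟩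
  · obtain ⟨u, hu, v, hv, huv⟩ : ∃ u ∈ E, ∃ v ∈ E, ⁅u, v⁆ ≠ 1 := by
      by_contra! h
      exact hna (eq_bot_iff.2 (commutator_le.2 h))
    refine ⟨_, hc u hu v hv, huv, ?_⟩
    rw [← comm_pow_left (fun n => hc _ (pow_mem hu n) v hv), commutatorElement_eq_one_iff_mul_comm]
    refine (mem_center_iff.1 ((hker _).1 ?_) v).symm
    rw [map_pow]
    exact hAq _ ⟨u, hu, rfl⟩
  set C := A ⊓ centralizer {π x} with hC
  have hCA : C ≤ A := inf_le_left
  have hcard : Nat.card C * C.relIndex A = Nat.card A := H1.card_mul_relIndex_of_le hCA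
  have := Fact.mk hq
  obtain ⟨n, hn⟩ := hAp.exists_card_eq
  obtain ⟨a, -, ha⟩ := (Nat.dvd_prime_pow hq).1 (hn ▸ (Dvd.intro_left _ hcard))
  have hquad : ¬ ⁅A, zpowers (π x)⁆ ≤ C := fun h => hAZ (central_of_quadratic hp h5 hx' hgen' hAm
    hq hAp (by
      rw [commutator_eq_bot_iff_le_centralizer, zpowers_eq_closure, centralizer_closure,
        ← zpowers_eq_closure]
      exact h.trans inf_le_right))
  have ha2 : 2 ≤ a := by
    by_contra! h
    apply hquad
    refine H24.commutator_zpowers_right_le ((H2.le_normalizer_inf le_normalizer_of_normal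
      le_normalizer) (mem_centralizer_singleton_iff.2 rfl)) ?_
    rintro _ ⟨e, he, rfl⟩
    have hb : ⁅e, x⁆ ∈ E := by
      rw [commutatorElement_def, mul_assoc, mul_assoc, ← mul_assoc x]
      exact E.mul_mem he (hE.conj_mem _ (E.inv_mem he) x)
    rw [← map_commutatorElement]
    by_contra hb'
    let L := (E ⊓ centralizer {⁅e, x⁆}).map π
    have hCL : C ≤ L := by
      rintro _ ⟨⟨u, hu, rfl⟩, hux⟩
      refine ⟨u, ⟨hu, mem_centralizer_singleton_iff.2 ?_⟩, rfl⟩
      rw [eq_comm, ← commutatorElement_eq_one_iff_mul_comm, commutatorElement_def e, mul_assoc,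
        mul_assoc, ← mul_assoc x, comm_mul_left (hc _ (hE.conj_mem _ (E.inv_mem he) x) u hu),
        comm_congr (u := x * e⁻¹ * x⁻¹) (v' := x * u * x⁻¹) rfl (by
          rw [map_mul, map_mul, ← mem_centralizer_singleton_iff.1 hux, map_inv,
            mul_inv_cancel_right]),
        comm_conj (hc _ (E.inv_mem he) u hu), ← comm_mul_left (hc _ (E.inv_mem he) u hu),
        mul_inv_cancel, commutatorElement_one_left]
    have hLA : L ≤ A := map_mono inf_le_left
    have h1 : C.relIndex L * L.relIndex A = q ^ a := by rw [relIndex_mul_relIndex C L A hCL hLA, ha]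
    have h2 : C.relIndex L ≠ 1 := fun e1 => hb' (relIndex_eq_one.1 e1
      ⟨_, ⟨hb, mem_centralizer_singleton_iff.2 rfl⟩, rfl⟩)
    have h3 : L.relIndex A = 1 := by
      interval_cases a
      · exact Nat.eq_one_of_mul_eq_one_left h1
      · rw [pow_one] at h1
        have := (Nat.dvd_prime hq).1 (Dvd.intro _ h1)
        rw [this.resolve_left h2] at h1
        exact Nat.eq_of_mul_eq_mul_left hq.pos (h1.trans (mul_one q).symm)
    apply hb'
    rw [(hker _).2 (hEC ⟨hb, fun v hv => ?_⟩)]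
    · exact one_mem _
    obtain ⟨w, ⟨-, hw⟩, hwv⟩ := relIndex_eq_one.1 h3 ⟨v, hv, rfl⟩
    rw [← commutatorElement_eq_one_iff_mul_comm, comm_congr hwv.symm rfl,
      commutatorElement_eq_one_iff_mul_comm]
    exact mem_centralizer_singleton_iff.1 hw
  have h0 : 0 < Nat.card C := Nat.card_pos
  have key := arith (N := C.relIndex A) hp h5 hq (ha ▸ pow_dvd_pow q ha2) (ha ▸ pow_pos hq.pos a)
    fun hqp => by
      let σ : Equiv.Perm A := MulAut.toPerm A (MulAut.conjNormal (π x))
      have hσ : σ ^ p = 1 := by rw [← map_pow, ← map_pow, hx', map_one, map_one]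
      have hσa : ∀ a, (σ a : G ⧸ center G) = π x * a * (π x)⁻¹ := fun _ => rfl
      have h4 : Nat.card {a // σ a = a} = Nat.card C := by
        refine Nat.card_congr ⟨fun a => ⟨a.1.1, a.1.2, ?_⟩, fun a => ⟨⟨a.1, a.2.1⟩, ?_⟩,
          fun _ => rfl, fun _ => rfl⟩
        · have := congrArg Subtype.val a.2
          rw [hσa, mul_inv_eq_iff_eq_mul] at this
          exact mem_centralizer_singleton_iff.2 this.symm
        · refine Subtype.ext ?_
          rw [hσa, mul_inv_eq_iff_eq_mul]
          exact (mem_centralizer_singleton_iff.1 a.2.2).symm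
      have h5 := card_orbits hp σ hσ
      rw [h4, ← hcard, mul_comm (p - 1), ← mul_add] at h5
      refine Nat.Coprime.dvd_of_dvd_mul_left ?_ (Dvd.intro _ h5)
      refine Nat.Coprime.coprime_dvd_right (card_dvd_of_le hCA) ?_
      rw [hn]
      exact ((Nat.coprime_primes hp hq).2 hqp.symm).pow_right n
  rw [← hcard, mul_comm (p - 1), ← mul_add]
  calc 4 * (Nat.card C * (C.relIndex A + (p - 1))) = Nat.card C * (4 * (C.relIndex A + (p - 1))) := by
        ring
    _ ≤ Nat.card C * (p * C.relIndex A) := Nat.mul_le_mul_left _ key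
    _ = _ := by ring

end Grp

universe u v

theorem irr {K V G : Type*} [Field K] [IsAlgClosed K] [AddCommGroup V] [Module K V]
    [FiniteDimensional K V] [Nontrivial V] [Group G] [Finite G] [Group.IsSolvable G]
    (ρ : G →* End K V) (hf : Function.Injective ρ)
    (hirr : ∀ W : Submodule K V, (∀ g, ∀ v ∈ W, ρ g v ∈ W) → W = ⊥ ∨ W = ⊤) {x : G} {p : ℕ}
    (hp : p.Prime) (h5 : 5 ≤ p) (hx : x ^ p = 1) (hx1 : x ≠ 1)
    (hgen : normalClosure ({x} : Set G) = ⊤) :
    2 * finrank K (LinearMap.ker (ρ x - 1)) < finrank K V := by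
  have hZ : ∀ z ∈ center G, ∃ c : K, ρ z = c • 1 := fun z hz =>
    H46.scalar_of_commute (Set.range ρ) (fun W hW => hirr W fun g => hW _ ⟨g, rfl⟩) _ (by
      rintro _ ⟨g, rfl⟩
      rw [← map_mul, ← map_mul, mem_center_iff.1 hz])
  by_cases hxZ : x ∈ center G
  · obtain ⟨c, hc⟩ := hZ x hxZ
    have h1 : c ≠ 1 := by
      rintro rfl
      exact hx1 (hf (by rw [hc, one_smul, map_one]))
    have : LinearMap.ker (ρ x - 1) = ⊥ := by
      rw [eq_bot_iff]
      intro v hv
      rw [LinearMap.mem_ker, hc, LinearMap.sub_apply, LinearMap.smul_apply, End.one_apply] at hv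
      nth_rewrite 2 [← one_smul K v] at hv
      rw [← sub_smul, smul_eq_zero, sub_eq_zero] at hv
      exact hv.resolve_left h1
    rw [this, finrank_bot]
    exact finrank_pos
  obtain ⟨E, ⟨hE, hEZ⟩, hmin⟩ := exists_minimal_of_wellFoundedLT
    (fun N : Subgroup G => N.Normal ∧ ¬ N ≤ center G) ⟨⊤, inferInstance, fun h => hxZ (h (mem_top x))⟩
  by_cases hab : ⁅E, E⁆ = ⊥
  · exact caseA ρ hf hirr hp h5 hx hgen
      (fun a ha b hb => (commutator_eq_bot_iff_le_centralizer.1 hab hb a ha)) hEZ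
  obtain ⟨h1, h2, ⟨q, hq, h3, z, hz, hz1, hzq⟩, h4⟩ := groupB hp h5 hx hgen (E := E)
    (fun D hD hlt => by
      by_contra h
      exact hlt.not_ge (hmin ⟨hD, h⟩ hlt.le)) hab
  refine caseB ρ hf hZ hp hx hx1 h1 h2 ?_ h4
  have := Fact.mk hq
  obtain ⟨n, hn⟩ := h3.exists_card_eq
  rw [hn, Nat.cast_pow]
  refine pow_ne_zero _ fun h0 => hz1 (hf ?_)
  have : CharP K q := (CharP.charP_iff_prime_eq_zero hq).2 h0
  obtain ⟨c, hc⟩ := hZ z hz
  have h6 : c ^ q = 1 := smul_left_injective K (one_ne_zero (α := End K V)) (by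
    change c ^ q • (1 : End K V) = (1 : K) • 1
    rw [← one_pow q, ← smul_pow, ← hc, ← map_pow, hzq, map_one, one_pow, one_smul])
  have h7 : c - 1 = 0 := pow_eq_zero_iff hq.ne_zero |>.1 (by rw [sub_pow_char, h6, one_pow, sub_self])
  rw [hc, sub_eq_zero.1 h7, one_smul, map_one]

end H26.FF
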