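import Cfsg.Agent.Lib.Flav26.Fix3
import Cfsg.Agent.Lib.BG3.ElemAb

/-! Flavell's fixed space bound over any field, and for elementary abelian sections (helper26). -/

set_option autoImplicit false

namespace H26.FF
open Module Subgroup Cfsg

universe v

theorem ker_le_add {K V : Type*} [Field K] [AddCommGroup V] [Module K V] [FiniteDimensional K V]
    (T : End K V) (W : Submodule K V) (h : W ≤ W.comap T) :
    finrank K (LinearMap.ker (T - 1)) ≤
      finrank K (LinearMap.ker ((T.restrict h : End K W) - 1)) +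
        finrank K (LinearMap.ker ((W.mapQ W T h : End K (V ⧸ W)) - 1)) := by
  have h0 : ∀ v ∈ LinearMap.ker (T - 1), T v = v := fun v hv => by
    rwa [LinearMap.mem_ker, LinearMap.sub_apply, sub_eq_zero] at hv
  let f : LinearMap.ker (T - 1) →ₗ[K] LinearMap.ker ((W.mapQ W T h : End K (V ⧸ W)) - 1) :=
    W.mkQ.restrict fun v hv => by
      rw [LinearMap.mem_ker, LinearMap.sub_apply, sub_eq_zero, Submodule.mkQ_apply,
        Submodule.mapQ_apply, h0 v hv, End.one_apply]
  have h1 : ∀ v : LinearMap.ker f, v.1.1 ∈ W := fun v =>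
    (Submodule.Quotient.mk_eq_zero W).1 (congrArg Subtype.val v.2)
  let g : LinearMap.ker f →ₗ[K] LinearMap.ker ((T.restrict h : End K W) - 1) :=
    { toFun := fun v => ⟨⟨v.1.1, h1 v⟩, by
        rw [LinearMap.mem_ker, LinearMap.sub_apply, sub_eq_zero]
        exact Subtype.ext (h0 _ v.1.2)⟩
      map_add' := fun _ _ => rfl
      map_smul' := fun _ _ => rfl }
  have h2 := LinearMap.finrank_le_finrank_of_injective (f := g) fun u v e =>
    Subtype.ext (Subtype.ext (congrArg (fun t => t.1.1) e))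
  have h3 := f.finrank_range_add_finrank_ker
  have h4 := (LinearMap.range f).finrank_le
  omega

variable {G : Type*} [Group G] [Finite G] [Group.IsSolvable G] {x : G} {p : ℕ}

theorem closed {K : Type*} [Field K] [IsAlgClosed K] (hp : p.Prime) (h5 : 5 ≤ p) (hx : x ^ p = 1)
    (hgen : normalClosure ({x} : Set G) = ⊤) (s : Finset G) (hs : (s.card : K) ≠ 0) (n : ℕ) :
    ∀ (V : Type v) [AddCommGroup V] [Module K V] [FiniteDimensional K V] [Nontrivial V]
      (ρ : G →* End K V), finrank K V = n → ∑ g ∈ s, ρ g = 0 →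
      2 * finrank K (LinearMap.ker (ρ x - 1)) < finrank K V := by
  induction n using Nat.strong_induction_on with
  | _ n ih =>
  intro V _ _ _ _ ρ hn h0
  by_cases hirr : ∀ W : Submodule K V, (∀ g, ∀ v ∈ W, ρ g v ∈ W) → W = ⊥ ∨ W = ⊤
  · let σ : G ⧸ ρ.ker →* End K V := QuotientGroup.lift _ ρ fun _ h => h
    have hσ : ∀ g, σ (QuotientGroup.mk' _ g) = ρ g := fun _ => rfl
    have hsurj := QuotientGroup.mk'_surjective ρ.ker
    refine irr σ ((injective_iff_map_eq_one σ).2 fun y hy => ?_)
      (fun W hW => hirr W fun g => hW (QuotientGroup.mk' _ g)) (x := QuotientGroup.mk' _ x) hp h5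
      (by rw [← map_pow, hx, map_one]) (fun e => hs ?_) (by
        rw [← Set.image_singleton, ← map_normalClosure _ _ hsurj, hgen,
          map_top_of_surjective _ hsurj])
    · obtain ⟨g, rfl⟩ := hsurj y
      exact (QuotientGroup.eq_one_iff g).2 hy
    · have h1 : (⊤ : Subgroup G) ≤ ρ.ker := by
        rw [← hgen]
        refine normalClosure_le_normal ?_
        rintro _ rfl
        exact (QuotientGroup.eq_one_iff _).1 e
      rw [Finset.sum_congr rfl fun g _ => (h1 (mem_top g) : ρ g = 1), Finset.sum_const,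
        ← Nat.cast_smul_eq_nsmul K, smul_eq_zero] at h0
      exact h0.resolve_right one_ne_zero
  push Not at hirr
  obtain ⟨W, hW, hb, ht⟩ := hirr
  have hW' : ∀ g, W ≤ W.comap (ρ g) := hW
  have : Nontrivial W := Submodule.nontrivial_iff_ne_bot.2 hb
  have : Nontrivial (V ⧸ W) := Submodule.Quotient.nontrivial_iff.2 ht
  have h1 := W.finrank_quotient_add_finrank
  have h2 : 0 < finrank K W := finrank_pos
  have h3 : 0 < finrank K (V ⧸ W) := finrank_pos
  have h4 := ih _ (by omega) W (Representation.subrepresentation ρ W hW') rfl (by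
    ext v
    have := LinearMap.congr_fun h0 v
    simpa using this)
  have h6 := ih _ (by omega) (V ⧸ W) (Representation.quotient ρ W hW') rfl (by
    ext v
    have := congrArg W.mkQ (LinearMap.congr_fun h0 v)
    simpa using this)
  have h7 := ker_le_add (ρ x) W (hW' x)
  exact lt_of_le_of_lt (Nat.mul_le_mul_left 2 h7) (by
    rw [mul_add, ← h1, add_comm (finrank K (V ⧸ W))]; exact Nat.add_lt_add h4 h6)

theorem main {k V : Type*} [Field k] [AddCommGroup V] [Module k V] [FiniteDimensional k V]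
    [Nontrivial V] (hp : p.Prime) (h5 : 5 ≤ p) (hx : x ^ p = 1)
    (hgen : normalClosure ({x} : Set G) = ⊤) (ρ : G →* End k V) (R : Subgroup G)
    (hR : (Nat.card R : k) ≠ 0) (hfix : ∀ v, (∀ g ∈ R, ρ g v = v) → v = 0) :
    2 * finrank k (LinearMap.ker (ρ x - 1)) < finrank k V := by
  classical
  have := Fintype.ofFinite R
  let s : Finset G := Finset.univ.map ⟨(Subtype.val : R → G), Subtype.val_injective⟩
  have h0 : ∑ g ∈ s, ρ g = 0 := by
    rw [Finset.sum_map]
    ext v
    refine hfix _ fun g hg => ?_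
    rw [LinearMap.sum_apply, map_sum]
    exact Fintype.sum_equiv (Equiv.mulLeft (⟨g, hg⟩ : R)) _ _ fun a => by
      rw [← End.mul_apply, ← map_mul]; rfl
  let K := AlgebraicClosure k
  let φ := End.baseChangeHom k K V
  let ρ' : G →* End K (TensorProduct k K V) := (φ : _ →* _).comp ρ
  have e : finrank K (TensorProduct k K V) = finrank k V := finrank_baseChange
  have : Nontrivial (TensorProduct k K V) := (finrank_pos_iff (R := K)).1 (by rw [e]; exact finrank_pos)
  have h1 := closed (K := K) hp h5 hx hgen s (by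
    rw [Finset.card_map, Finset.card_univ, ← Nat.card_eq_fintype_card,
      ← map_natCast (algebraMap k K)]
    exact (_root_.map_ne_zero _).2 hR) _ _ ρ' rfl (by
    have := congrArg φ h0
    rwa [map_sum, map_zero] at this)
  rw [e] at h1
  refine lt_of_le_of_lt (Nat.mul_le_mul_left 2 ?_) h1
  rw [← finrank_baseChange (R := K)]
  refine LinearMap.finrank_le_finrank_of_injective
    (f := ((LinearMap.ker (ρ x - 1)).subtype.baseChange K).codRestrict _ fun t => ?_) fun a b h => ?_
  · have h2 : ρ' x - 1 = (ρ x - 1).baseChange K := by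
      rw [← map_one φ]; exact (map_sub φ _ _).symm
    rw [LinearMap.mem_ker, h2, ← LinearMap.comp_apply, ← LinearMap.baseChange_comp,
      LinearMap.comp_ker_subtype, LinearMap.baseChange_zero, LinearMap.zero_apply]
  · exact Module.Flat.lTensor_preserves_injective_linearMap (M := K) _
      (Submodule.injective_subtype _) (congrArg Subtype.val h)

theorem card_sq_lt {Γ : Type*} [Group Γ] [Finite Γ] {A R W : Subgroup Γ} {y : Γ} {q : ℕ}
    (hp : p.Prime) (h5 : 5 ≤ p) (hy : y ^ p = 1) (hA : Group.IsSolvable A) (hyA : y ∈ A)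
    (hgen : ∀ N : Subgroup Γ, y ∈ N → A ≤ normalizer (N : Set Γ) → A ≤ N) (hRA : R ≤ A)
    (hAW : A ≤ normalizer (W : Set Γ)) (hq : q.Prime)
    (hW : IsMulCommutative W ∧ ∀ w : W, w ^ q = 1) (hW0 : W ≠ ⊥) (hR : ¬ q ∣ Nat.card R)
    (hC : W ⊓ centralizer (R : Set Γ) = ⊥) :
    Nat.card ↥(W ⊓ centralizer {y}) ^ 2 < Nat.card W := by
  have := Fact.mk hq
  let ψ : A →* MulAut W := W.normalizerMonoidHom.comp (inclusion hAW)
  have hψ : ∀ a w, (ψ a w : Γ) = a * w * a⁻¹ := fun _ _ => rfl
  let ρ : A →* End (ZMod q) (H46.EA q W hW) := (H46.EA.rep hW).comp ψ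
  have : Nontrivial W := (nontrivial_iff_ne_bot W).2 hW0
  have : Nontrivial (H46.EA q W hW) := (H46.EA.of hW).symm.nontrivial
  have h1 := main (x := (⟨y, hyA⟩ : A)) hp h5 (Subtype.ext hy) (by
      rw [eq_top_iff, ← map_subtype_le_map_subtype, ← MonoidHom.range_eq_map, range_subtype]
      refine hgen _ ⟨_, subset_normalClosure rfl, rfl⟩ (le_normalizer_iff.2 ?_)
      rintro a ha _ ⟨b, hb, rfl⟩
      exact ⟨_, normalClosure_normal.conj_mem b hb ⟨a, ha⟩, rfl⟩)
    ρ (R.subgroupOf A) (by
      rw [Nat.card_congr (subgroupOfEquivOfLe hRA).toEquiv, Ne, ZMod.natCast_eq_zero_iff]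
      exact hR) fun v hv => by
      obtain ⟨w, rfl⟩ := (H46.EA.of hW).surjective v
      rw [H46.EA.of_eq_zero]
      refine Subtype.ext (mem_bot.1 (hC ▸ ⟨w.2, fun g hg => ?_⟩))
      have := congrArg Subtype.val ((H46.EA.of hW).injective (hv ⟨g, hRA hg⟩ hg))
      exact mul_inv_eq_iff_eq_mul.1 this
  have h2 : Nat.card ↥(W ⊓ centralizer {y}) = Nat.card (LinearMap.ker (ρ ⟨y, hyA⟩ - 1)) := by
    have h3 : ∀ w : W, H46.EA.of hW w ∈ LinearMap.ker (ρ ⟨y, hyA⟩ - 1) ↔
        (w : Γ) ∈ centralizer ({y} : Set Γ) := fun w => by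
      rw [LinearMap.mem_ker, LinearMap.sub_apply, sub_eq_zero, mem_centralizer_singleton_iff,
        eq_comm (a := (w : Γ) * y), ← mul_inv_eq_iff_eq_mul]
      exact ⟨fun h => congrArg Subtype.val ((H46.EA.of hW).injective h),
        fun h => congrArg (H46.EA.of hW) (Subtype.ext h)⟩
    exact Nat.card_congr ⟨fun a => ⟨H46.EA.of hW ⟨a.1, a.2.1⟩, (h3 _).2 a.2.2⟩,
      fun a => ⟨((H46.EA.of hW).symm a.1).1, ((H46.EA.of hW).symm a.1).2, (h3 _).1 a.2⟩,
      fun _ => rfl, fun _ => rfl⟩
  rw [h2, H46.EA.card_eq_pow_finrank hW, Module.natCard_eq_pow_finrank (K := ZMod q),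
    Nat.card_zmod, ← pow_mul, mul_comm]
  exact Nat.pow_lt_pow_right hq.one_lt h1

end H26.FF
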