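import Cfsg.Agent.Lib.Flav26.Fix2
import Cfsg.Agent.Lib.Core.CoprimeSylow
import Cfsg.Agent.Lib.Core.CoprimeAbelian
import Cfsg.Agent.Lib.Core.Frattini
import Cfsg.Agent.Lib.Core.MinNormal

/-! Fixed points in `[H, P]` and in the subgroups `[h, P]`: basic lemmas (helper26). -/

set_option autoImplicit false

namespace H26.FG
open Subgroup Cfsg
open scoped commutatorElement

local notation:max "𝐍(" H ")" => Subgroup.normalizer (SetLike.coe H)
local notation:max "𝐂(" H ")" => Subgroup.centralizer (SetLike.coe H)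

variable {G G' : Type*} [Group G] [Group G']

/-- `[h, ⟨x⟩]` -/
def K (x h : G) : Subgroup G := closure {c | ∃ i : ℕ, c = h⁻¹ * (x ^ i * h * (x ^ i)⁻¹)}

/-- the subgroup generated by the fixed points of `x` in the `[h, ⟨x⟩]` -/
def D (x : G) (H : Subgroup G) : Subgroup G := ⨆ h ∈ H, K x h ⊓ 𝐂(zpowers x)

theorem mem_C {x c : G} : c ∈ 𝐂(zpowers x) ↔ x * c = c * x := by
  rw [zpowers_eq_closure, centralizer_closure, mem_centralizer_singleton_iff, eq_comm]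

theorem mem_K (x h : G) (i : ℕ) : h⁻¹ * (x ^ i * h * (x ^ i)⁻¹) ∈ K x h := subset_closure ⟨i, rfl⟩

theorem K_le_comm {x h : G} {L : Subgroup G} (hL : h ∈ L) : K x h ≤ ⁅L, zpowers x⁆ := by
  rw [K, closure_le]
  rintro _ ⟨i, rfl⟩
  have := commutator_mem_commutator (L.inv_mem hL) (pow_mem (mem_zpowers x) i)
  rwa [commutatorElement_def, inv_inv, mul_assoc, mul_assoc, ← mul_assoc (x ^ i)] at this

theorem K_le {x h : G} {L : Subgroup G} (hL : h ∈ L) (hn : zpowers x ≤ 𝐍(L)) : K x h ≤ L :=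
  (K_le_comm hL).trans (H2.commutator_le_of_le_normalizer hn)

theorem map_K (f : G →* G') (x h : G) : (K x h).map f = K (f x) (f h) := by
  rw [K, K, MonoidHom.map_closure]
  congr 1
  ext y
  constructor
  · rintro ⟨_, ⟨i, rfl⟩, rfl⟩
    exact ⟨i, by simp⟩
  · rintro ⟨i, rfl⟩
    exact ⟨_, ⟨i, rfl⟩, by simp⟩

theorem le_N_K [Finite G] (x h : G) : zpowers x ≤ 𝐍(K x h) := by
  rw [K, le_normalizer_closure_iff]
  rintro a ha _ ⟨i, rfl⟩
  obtain ⟨j, rfl⟩ := mem_powers_iff_mem_zpowers.2 ha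
  have := mul_mem (inv_mem (mem_K x h j)) (mem_K x h (j + i))
  rwa [show (h⁻¹ * (x ^ j * h * (x ^ j)⁻¹))⁻¹ * (h⁻¹ * (x ^ (j + i) * h * (x ^ (j + i))⁻¹)) =
    x ^ j * (h⁻¹ * (x ^ i * h * (x ^ i)⁻¹)) * (x ^ j)⁻¹ by group] at this

theorem comm_le_iSup_K [Finite G] (x : G) (H : Subgroup G) :
    ⁅H, zpowers x⁆ ≤ ⨆ h ∈ H, K x h := by
  rw [commutator_le]
  intro h hh a ha
  obtain ⟨j, rfl⟩ := mem_powers_iff_mem_zpowers.2 ha
  refine mem_iSup_of_mem h⁻¹ (mem_iSup_of_mem (H.inv_mem hh) ?_)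
  have := mem_K x h⁻¹ j
  rwa [inv_inv, ← mul_assoc, ← mul_assoc, ← commutatorElement_def] at this

theorem K_sup [Finite G] (x h : G) : K x h ⊔ zpowers x = zpowers x ⊔ zpowers (h⁻¹ * x * h) := by
  refine le_antisymm (sup_le ?_ le_sup_left) (sup_le le_sup_right (zpowers_le.2 ?_))
  · rw [K, closure_le]
    rintro _ ⟨i, rfl⟩
    rw [show h⁻¹ * (x ^ i * h * (x ^ i)⁻¹) = (h⁻¹ * x * h⁻¹⁻¹) ^ i * (x ^ i)⁻¹ by
      rw [conj_pow]; group, inv_inv]
    exact mul_mem (mem_sup_right (pow_mem (mem_zpowers _) i))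
      (mem_sup_left (inv_mem (pow_mem (mem_zpowers _) i)))
  · rw [show h⁻¹ * x * h = h⁻¹ * (x ^ 1 * h * (x ^ 1)⁻¹) * x by group]
    exact mul_mem (mem_sup_left (mem_K x h 1)) (mem_sup_right (mem_zpowers x))

theorem exists_C_mul_K [Finite G] {x h : G} (hc : (Nat.card (zpowers x)).Coprime (Nat.card (K x h))) :
    ∃ k ∈ K x h, h * k ∈ 𝐂(zpowers x) := by
  refine H2.exists_mul_mem_centralizer (le_N_K x h) hc (Or.inl (H2.isSolvable_zpowers x)) ?_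
  intro a ha
  obtain ⟨j, rfl⟩ := mem_powers_iff_mem_zpowers.2 ha
  have := mem_K x h j
  rwa [← mul_assoc, ← mul_assoc] at this

theorem D_le_C (x : G) (H : Subgroup G) : D x H ≤ 𝐂(zpowers x) := iSup₂_le fun _ _ => inf_le_right

theorem D_le {x : G} {H : Subgroup G} (hn : zpowers x ≤ 𝐍(H)) : D x H ≤ H :=
  iSup₂_le fun _ hh => inf_le_left.trans (K_le hh hn)

theorem le_D {x h : G} {H : Subgroup G} (hh : h ∈ H) : K x h ⊓ 𝐂(zpowers x) ≤ D x H :=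
  le_iSup₂_of_le (f := fun h (_ : h ∈ H) => K x h ⊓ 𝐂(zpowers x)) h hh le_rfl

theorem D_mono (x : G) {H L : Subgroup G} (h : H ≤ L) : D x H ≤ D x L :=
  iSup₂_le fun _ hh => le_D (h hh)

theorem map_C_le (f : G →* G') (x : G) : (𝐂(zpowers x)).map f ≤ 𝐂(zpowers (f x)) := by
  rintro _ ⟨c, hc, rfl⟩
  rw [mem_C, ← map_mul, ← map_mul, mem_C.1 hc]

theorem map_D_le (f : G →* G') (x : G) (H : Subgroup G) : (D x H).map f ≤ D (f x) (H.map f) := by
  rw [map_le_iff_le_comap]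
  refine iSup₂_le fun h hh => ?_
  rw [← map_le_iff_le_comap]
  refine le_trans ?_ (le_D (mem_map_of_mem f hh))
  exact (map_inf_le _ _ f).trans (inf_le_inf (map_K f x h).le (map_C_le f x))

theorem D_map_le [Finite G] (f : G →* G') {x : G} {H : Subgroup G} (hn : zpowers x ≤ 𝐍(H))
    (hc : (Nat.card (zpowers x)).Coprime (Nat.card H)) : D (f x) (H.map f) ≤ (D x H).map f := by
  refine iSup₂_le ?_
  rintro _ ⟨h, hh, rfl⟩
  rw [← map_K, ← MonoidHom.map_zpowers, ← H2.map_inf_centralizer_of_coprime (le_N_K x h)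
    (H2.coprime_of_le_right hc (K_le hh hn)) (Or.inl (H2.isSolvable_zpowers x))]
  exact map_mono (le_D hh)

theorem le_N_D (x : G) (H : Subgroup G) : H ⊓ 𝐂(zpowers x) ≤ 𝐍(D x H) := by
  rw [le_normalizer_iff]
  intro c hc d hd
  have h1 := map_D_le (MulAut.conj c).toMonoidHom x H (mem_map_of_mem _ hd)
  have h2 : (MulAut.conj c).toMonoidHom x = x := by
    change c * x * c⁻¹ = x
    rw [← mem_C.1 hc.2, mul_inv_cancel_right]
  rw [h2] at h1
  refine D_mono x ?_ h1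
  rintro _ ⟨h, hh, rfl⟩
  exact mul_mem (mul_mem hc.1 hh) (inv_mem hc.1)

/-- the class two configuration -/
theorem class_two [Finite G] {x : G} {m : ℕ} (hm : Odd m) (hx : x ^ m = 1) {H : Subgroup G}
    [hH : H.Normal] (hHP : H ≤ ⁅H, zpowers x⁆) (hZ : ⁅H, H⁆ ≤ center G)
    (h : ∀ a ∈ H, ⁅a, x * a * x⁻¹⁆ = 1) : ⁅H, H⁆ = ⊥ := by
  have hc : ∀ u ∈ H, ∀ v ∈ H, ⁅u, v⁆ ∈ center G := fun u hu v hv =>
    hZ (commutator_mem_commutator hu hv)
  have hx1 : ∀ u ∈ H, x * u * x⁻¹ ∈ H := fun u hu => hH.conj_mem u hu x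
  have h1 : ∀ a ∈ H, ∀ b ∈ H, ⁅a, x * b * x⁻¹⁆ = ⁅x * a * x⁻¹, b⁆ := by
    intro a ha b hb
    have := h _ (mul_mem ha hb)
    rw [show x * (a * b) * x⁻¹ = (x * a * x⁻¹) * (x * b * x⁻¹) by group,
      FF.comm_mul_left (hc _ hb _ (mul_mem (hx1 a ha) (hx1 b hb))),
      FF.comm_mul_right (hc _ ha _ (hx1 b hb)), FF.comm_mul_right (hc _ hb _ (hx1 b hb)), h a ha,
      h b hb, one_mul, mul_one, mul_eq_one_iff_eq_inv, commutatorElement_inv] at this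
    exact this
  have h2 : ∀ b ∈ H, ⁅x * x, b⁆ ∈ 𝐂(H) := by
    intro b hb a ha
    have e1 := h1 a ha _ (hx1 b hb)
    rw [FF.comm_conj (hc _ ha _ hb)] at e1
    rw [← commutatorElement_eq_one_iff_mul_comm, show ⁅x * x, b⁆ = x * (x * b * x⁻¹) * x⁻¹ * b⁻¹ by
      rw [commutatorElement_def]; group, FF.comm_mul_right (hc _ ha _ (inv_mem hb)), e1,
      ← FF.comm_mul_right (hc _ ha _ (inv_mem hb)), mul_inv_cancel, commutatorElement_one_right]
  have h3 : zpowers x ≤ H2.relCentralizer H 𝐂(H) := by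
    obtain ⟨k, rfl⟩ := hm
    have e7 : x = (x * x) ^ (k + 1) := by
      rw [← sq, ← pow_mul, show 2 * (k + 1) = (2 * k + 1) + 1 by ring, pow_succ, hx, one_mul]
    rw [zpowers_le]
    nth_rewrite 1 [e7]
    have hn : x * x ∈ 𝐍(𝐂(H)) := by rw [normalizer_eq_top]; exact mem_top _
    exact pow_mem (H2.mem_relCentralizer.2 ⟨hn, h2⟩) _
  rw [commutator_eq_bot_iff_le_centralizer]
  refine hHP.trans ?_
  rw [commutator_comm]
  exact (H2.le_relCentralizer_iff.1 h3).2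

theorem exists_v [Finite G] {A R W : Subgroup G} {x a : G} (hR : Group.IsSolvable R) (ha : a ∈ A)
    (hAx : A = zpowers x ⊔ zpowers (a * x * a⁻¹)) (hRA : R ≤ A) (hAR : A ≤ 𝐍(R))
    (hAW : A ≤ 𝐍(W)) (hWc : W ≤ 𝐂(W)) (hcop : (Nat.card R).Coprime (Nat.card W))
    (hC : W ⊓ 𝐂(R) = ⊥) (hirr : ∀ U ≤ W, A ≤ 𝐍(U) → U = ⊥ ∨ U = W)
    (h1 : Nat.card ↥(W ⊓ 𝐂(zpowers x)) ^ 2 < Nat.card W) :
    ∃ v ∈ W, W ≤ zpowers x ⊔ zpowers (v * (a * x * a⁻¹) * v⁻¹) := by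
  by_contra! hcon
  set y := a * x * a⁻¹ with hy
  have hxA : x ∈ A := hAx ▸ mem_sup_left (mem_zpowers x)
  have hyA : y ∈ A := hAx ▸ mem_sup_right (mem_zpowers y)
  have key : ∀ v ∈ W, ∃ w ∈ W ⊓ 𝐂(zpowers x), w⁻¹ * v ∈ 𝐂(zpowers y) := by
    intro v hv
    set H := zpowers x ⊔ zpowers (v * y * v⁻¹) with hH
    have hxH : x ∈ H := mem_sup_left (mem_zpowers _)
    have hyH : v * y * v⁻¹ ∈ H := mem_sup_right (mem_zpowers _)
    have hHW : H ≤ 𝐍(W) := sup_le (zpowers_le.2 (hAW hxA)) (zpowers_le.2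
      (mul_mem (mul_mem (le_normalizer hv) (hAW hyA)) (le_normalizer (inv_mem hv))))
    have hAH : A ≤ W ⊔ H := by
      rw [hAx]
      refine sup_le (zpowers_le.2 (mem_sup_right hxH)) (zpowers_le.2 ?_)
      rw [show y = v⁻¹ * (v * y * v⁻¹) * v by group]
      exact mul_mem (mul_mem (mem_sup_left (inv_mem hv)) (mem_sup_right hyH)) (mem_sup_left hv)
    have hU : W ⊓ H = ⊥ := by
      refine (hirr _ inf_le_left (hAH.trans (sup_le ?_
        (H2.le_normalizer_inf hHW le_normalizer)))).resolve_right fun e => hcon v hv (inf_eq_left.1 e)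
      exact (hWc.trans (centralizer_le inf_le_left)).trans (centralizer_le_normalizer _)
    obtain ⟨w, hw, hwR⟩ := H2.exists_conj_le_of_forall_mul_mem (hRA.trans hAW) hcop
      (Or.inl hR) (H := H) fun r hr => by
        obtain ⟨k, hk, h, hh, e⟩ := (H2.mem_sup_iff_of_le_normalizer hHW).1 (hAH (hRA hr))
        exact ⟨k⁻¹, inv_mem hk, by rw [← e, inv_mul_cancel_left]; exact hh⟩
    have h1 : ∀ k ∈ W, ∀ g ∈ A, w * (k * g) * w⁻¹ ∈ H → k = 1 := by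
      intro k hk g hg hkg
      rw [← mem_bot, ← hC]
      refine ⟨hk, fun r hr => ?_⟩
      have h2 := hwR _ (H2.inv_conj_mem_of_le_normalizer hAR hg hr)
      have h3 : w * (k * r * k⁻¹ * r⁻¹) * w⁻¹ ∈ W ⊓ H := by
        refine ⟨W.mul_mem (W.mul_mem hw ?_) (W.inv_mem hw), ?_⟩
        · rw [mul_assoc, mul_assoc, ← mul_assoc r]
          exact mul_mem hk (H2.conj_mem_of_le_normalizer hAW (hRA hr) (inv_mem hk))
        · have := mul_mem (mul_mem (mul_mem hkg h2) (inv_mem hkg)) (inv_mem (hwR r hr))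
          rwa [show w * (k * g) * w⁻¹ * (w * (g⁻¹ * r * g) * w⁻¹) * (w * (k * g) * w⁻¹)⁻¹ *
            (w * r * w⁻¹)⁻¹ = w * (k * r * k⁻¹ * r⁻¹) * w⁻¹ by group] at this
      rw [hU, mem_bot, mul_inv_eq_one, mul_eq_left, mul_inv_eq_one, mul_inv_eq_iff_eq_mul] at h3
      exact h3.symm
    refine ⟨w, ⟨hw, mem_C.2 ?_⟩, mem_C.2 ?_⟩
    · have := h1 (w⁻¹ * (x * w * x⁻¹)) (mul_mem (inv_mem hw)
        (H2.conj_mem_of_le_normalizer hAW hxA hw)) x hxA (by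
          rw [show w * (w⁻¹ * (x * w * x⁻¹) * x) * w⁻¹ = x by group]; exact hxH)
      rw [inv_mul_eq_one, eq_mul_inv_iff_mul_eq] at this
      exact this.symm
    · have h2 := mul_mem (inv_mem hw) hv
      have := h1 (w⁻¹ * v * (y * (w⁻¹ * v)⁻¹ * y⁻¹)) (mul_mem h2
        (H2.conj_mem_of_le_normalizer hAW hyA (inv_mem h2))) y hyA (by
          rw [show w * (w⁻¹ * v * (y * (w⁻¹ * v)⁻¹ * y⁻¹) * y) * w⁻¹ = v * y * v⁻¹ by group]
          exact hyH)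
      rw [← mul_assoc, ← mul_assoc, mul_inv_eq_one, mul_inv_eq_iff_eq_mul] at this
      exact this.symm
  let φ : ↥(W ⊓ 𝐂(zpowers x)) × ↥(W ⊓ 𝐂(zpowers x)) → W := fun t =>
    ⟨t.1 * (a * t.2 * a⁻¹), mul_mem t.1.2.1 (H2.conj_mem_of_le_normalizer hAW ha t.2.2.1)⟩
  have hφ : Function.Surjective φ := by
    rintro ⟨v, hv⟩
    obtain ⟨w, hw, hwv⟩ := key v hv
    refine ⟨(⟨w, hw⟩, ⟨a⁻¹ * (w⁻¹ * v) * a, H2.inv_conj_mem_of_le_normalizer hAW ha
      (mul_mem (inv_mem hw.1) hv), mem_C.2 ?_⟩), Subtype.ext ?_⟩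
    · have := mem_C.1 hwv
      calc x * (a⁻¹ * (w⁻¹ * v) * a) = a⁻¹ * (y * (w⁻¹ * v)) * a := by rw [hy]; group
        _ = _ := by rw [this, hy]; group
    · change w * (a * (a⁻¹ * (w⁻¹ * v) * a) * a⁻¹) = v
      group
  have h2 := Nat.card_le_card_of_surjective φ hφ
  rw [Nat.card_prod, ← sq] at h2
  omega

end H26.FG
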